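/-
The special unitary groups over the field with four elements inside the general linear group.
-/
import Cfsg.Agent.H6.DCf
import Cfsg.Agent.H1.GU1

set_option autoImplicit false

namespace CfsgH6

open CfsgH5 Subgroup Matrix Cfsg

noncomputable section

/-- the Frobenius map -/
def frob4 : F4 →+* F4 where
  toFun x := x ^ 2
  map_one' := by decide
  map_mul' := by decide
  map_zero' := by decide
  map_add' := by decide

theorem herm_of' {n : ℕ} {M : Matrix (Fin n) (Fin n) F4} (h : Mᵀ * M.map frob4 = 1) (u v : Fin n → F4) :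
    hermForm n F4 2 (M *ᵥ u) (M *ᵥ v) = hermForm n F4 2 u v := by
  show (M *ᵥ u) ⬝ᵥ (frob4 ∘ (M *ᵥ v)) = u ⬝ᵥ (frob4 ∘ v)
  have : frob4 ∘ (M *ᵥ v) = M.map frob4 *ᵥ (frob4 ∘ v) := funext fun i => RingHom.map_mulVec frob4 M v i
  rw [this, dotProduct_mulVec, ← vecMul_transpose, vecMul_vecMul, h, vecMul_one]

/-- the embedding of the special unitary group -/
def suHom (n : ℕ) : SU n F4 2 →* GL (Fin n) F4 := SpecialLinearGroup.toGL.comp (SU n F4 2).subtype

theorem suHom_inj (n : ℕ) : Function.Injective (suHom n) :=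
  SpecialLinearGroup.toGL_injective.comp Subtype.val_injective

theorem mem_suHom {n : ℕ} {g : GL (Fin n) F4} (h : g ∈ GU n F4 2) (hd : g.1.det = 1) :
    g ∈ (suHom n).range := ⟨⟨⟨g.1, hd⟩, h⟩, Units.ext rfl⟩

theorem card_SU_le (n : ℕ) : 3 * (Nat.card (suHom (n + 1)).range : ℤ) ≤ CfsgH1.ordGU 2 (n + 1) := by
  rw [← CfsgH1.card_GU (K := F4) rfl]
  have h1 := card_map_mul_le (GeneralLinearGroup.det (n := Fin (n + 1)) (R := F4))
    (H := GU (n + 1) F4 2) (Z := (suHom (n + 1)).range)
    (by rintro _ ⟨g, rfl⟩; exact g.2) (by rintro _ ⟨g, rfl⟩; exact Units.ext g.1.2)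
  let w : F4ˣ := Units.mk0 F4.w (by decide)
  let d : Fin (n + 1) → F4 := Function.update 1 0 F4.w
  have hd : (diagonal d).det = F4.w := by
    rw [det_diagonal, Finset.prod_update_of_mem (Finset.mem_univ _)]; simp
  have h2 : w ∈ (GU (n + 1) F4 2).map GeneralLinearGroup.det := by
    refine ⟨GeneralLinearGroup.mkOfDetNeZero (diagonal d) (by rw [hd]; decide), herm_of' ?_,
      Units.ext hd⟩
    show (diagonal d)ᵀ * (diagonal d).map frob4 = 1
    rw [diagonal_transpose, diagonal_map (map_zero _), diagonal_mul_diagonal, ← diagonal_one]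
    congr 1
    ext i
    by_cases h : i = 0
    · subst h; simp only [d, Function.update_self]; decide
    · simp [d, h]
  have h3 := Nat.le_of_dvd Nat.card_pos (prime_dvd_card Nat.prime_three h2 (Units.ext (by decide))
    fun h => absurd (congrArg Units.val h) (by decide))
  have := (Nat.mul_le_mul_left _ h3).trans h1
  omega

theorem le_ker_of_dich {Γ A : Type*} [Group Γ] [Finite Γ] [Group A] [Finite A] {G Z : Subgroup Γ}
    (h : ∀ N : Subgroup Γ, N ≤ G → NormBy G N → N ≤ Z ∨ N = G) (f : Γ →* A)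
    (hc : Nat.card Z * Nat.card A < Nat.card G) : G ≤ f.ker := by
  rcases h (f.ker ⊓ G) inf_le_right (fun g hg n hn =>
    ⟨f.normal_ker.conj_mem n hn.1 g, G.mul_mem (G.mul_mem hg hn.2) (G.inv_mem hg)⟩) with h | h
  · have h1 := card_mul_index ((f.ker ⊓ G).subgroupOf G)
    rw [Nat.card_congr (subgroupOfEquivOfLe inf_le_right).toEquiv, inf_subgroupOf_right, ← relIndex,
      relIndex_ker] at h1
    have := Nat.mul_le_mul (card_le_of_le h) (Subgroup.card_le_card_group (G.map f))
    omega
  · exact h ▸ inf_le_left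

/-- a large enough perfect subgroup of the unitary group is the special unitary group -/
theorem eq_SU {n : ℕ} {G Z : Subgroup (GL (Fin (n + 1)) F4)}
    (h : ∀ N : Subgroup _, N ≤ G → NormBy G N → N ≤ Z ∨ N = G) (hc : Nat.card Z * 3 < Nat.card G)
    (hU : G ≤ GU (n + 1) F4 2) (hG : CfsgH1.ordGU 2 (n + 1) ≤ 3 * (Nat.card G : ℤ)) :
    Nonempty (G ≃* SU (n + 1) F4 2) := by
  have h1 := le_ker_of_dich h (GeneralLinearGroup.det (n := Fin (n + 1)) (R := F4)) (by
    rwa [Nat.card_units, Nat.card_eq_fintype_card (α := F4), F4.card_eq])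
  have h2 : G = (suHom (n + 1)).range := eq_of_le_of_card_ge (fun g hg => mem_suHom (hU hg) (by
    have := h1 hg
    rwa [MonoidHom.mem_ker, Units.ext_iff, GeneralLinearGroup.val_det_apply] at this)) (by
      have := card_SU_le n
      omega)
  exact ⟨(MulEquiv.subgroupCongr h2).trans (MonoidHom.ofInjective (suHom_inj _)).symm⟩

end

end CfsgH6
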