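/-
More glue: scalar matrices, orders through divisibility, central quotients.
-/
import Cfsg.Agent.H6.DCf
import Cfsg.Agent.H6.SU4

set_option autoImplicit false

namespace CfsgH6

open CfsgH5 Subgroup MulAction Matrix

noncomputable section

namespace PP

variable {P : PP}

/-- a scalar matrix -/
def scal (P : PP) (c : ℕ) (hc : c.Coprime P.p) : (Matrix (Fin P.n) (Fin P.n) (ZMod P.p))ˣ :=
  Units.map (Matrix.scalar (Fin P.n)).toMonoidHom (ZMod.unitOfCoprime c hc)

theorem scal_comm {c : ℕ} (hc : c.Coprime P.p) (g : (Matrix (Fin P.n) (Fin P.n) (ZMod P.p))ˣ) :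
    g * P.scal c hc = P.scal c hc * g :=
  Units.ext (Matrix.scalar_commute _ (fun _ => Commute.all _ _) _).eq.symm

theorem scal_pow {c m : ℕ} (hc : c.Coprime P.p) (h : Nat.beq (c ^ m % P.p) (1 % P.p) = true) :
    P.scal c hc ^ m = 1 := by
  rw [scal, ← map_pow, show ZMod.unitOfCoprime c hc ^ m = 1 from Units.ext (by
    rw [Units.val_pow_eq_pow_val, ZMod.coe_unitOfCoprime, ← Nat.cast_pow, Units.val_one, ← Nat.cast_one,
      ZMod.natCast_eq_natCast_iff']
    exact (beq_true_iff _ _).1 h), map_one]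

theorem scal_code [Fact (1 < P.p)] (h : P.ok = true) {c s : ℕ} (hc : c.Coprime P.p)
    (e : band (Nat.blt c P.p) (Nat.beq (Nat.mul P.ops.one c) s) = true) :
    (mc h).units.code (P.scal c hc) = s := by
  simp only [band_eq, Bool.and_eq_true, blt_true_iff, beq_true_iff] at e
  rw [← e.2, ← (mc h).code_one]
  refine Eq.trans (evd_congr fun q _ => ?_) (evd_mul _ _ _ _).symm
  unfold ent
  split_ifs with h1
  · simp only [scal, Units.coe_map, RingHom.toMonoidHom_eq_coe, MonoidHom.coe_coe, scalar_apply,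
      diagonal_apply, ZMod.coe_unitOfCoprime, Matrix.one_apply]
    split_ifs
    · rw [ZMod.val_one, one_mul, ZMod.val_natCast, Nat.mod_eq_of_lt e.1]
    · simp
  · simp

end PP

theorem lcm_step {a b c n : ℕ} (h1 : a ∣ c) (h2 : b ∣ c) (e : Nat.beq (Nat.lcm a b) n = true) : n ∣ c :=
  (beq_true_iff _ _).1 e ▸ Nat.lcm_dvd h1 h2

variable {Γ : Type*} [Group Γ]

theorem dvd_of_sub {K G : Subgroup Γ} (h : K ≤ G) {k : ℕ} (h1 : Nat.card K ≤ k) (h2 : k ≤ Nat.card K) :
    k ∣ Nat.card G := le_antisymm h1 h2 ▸ card_dvd_of_le h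

/-- a simple subgroup maps isomorphically into the central quotient -/
theorem simple_in_quot [Finite Γ] {G K : Subgroup Γ} (h : K ≤ G) (hK : IsSimpleGroup K)
    (hc : Nat.card (center G) < Nat.card K) :
    ∃ L : Subgroup (G ⧸ center G), Nonempty (K ≃* L) := by
  let f : K →* G ⧸ center G := (QuotientGroup.mk' _).comp (inclusion h)
  refine ⟨f.range, ⟨MonoidHom.ofInjective ?_⟩⟩
  rw [← MonoidHom.ker_eq_bot_iff]
  refine (f.normal_ker.eq_bot_or_eq_top).resolve_right fun h1 => ?_
  have : Nat.card K ≤ Nat.card (center G) := Nat.card_le_card_of_injective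
    (fun x => ⟨inclusion h x, (QuotientGroup.eq_one_iff _).1 (MonoidHom.mem_ker.1 (h1 ▸ mem_top x : x ∈ f.ker))⟩)
    fun x y e => inclusion_injective h (congrArg Subtype.val e)
  omega

/-- the permutation representation of the central quotient -/
theorem perm_rep_quot [Finite Γ] {G H Z : Subgroup Γ} (hH : H ≤ G) (hZ : Z ≤ H)
    (hc : center G = Z.subgroupOf G ∧ IsSimpleGroup (G ⧸ center G)) {n z b : ℕ} [NeZero n] (hn : 1 < n)
    (h1 : Nat.card Z = z) (h2 : Nat.card H = b * z) (h3 : Nat.card G = n * b * z) :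
    ∃ P : Subgroup (Equiv.Perm (Fin n)), Nonempty ((G ⧸ center G) ≃* P) ∧ IsPretransitive P (Fin n) ∧
      Nat.card (stabilizer P (0 : Fin n)) = b := by
  have := hc.2
  obtain ⟨h4, h5⟩ := card_center_quot (hZ.trans hH) hc.1 h1 h3
  have h6 := card_map_mk (N := center G) (L := H.subgroupOf G) (hc.1 ▸ fun x hx => hZ hx)
  rw [Nat.card_congr (subgroupOfEquivOfLe hH).toEquiv, h2, h4] at h6
  have h7 := Nat.eq_of_mul_eq_mul_right (h1 ▸ Nat.card_pos) h6
  obtain ⟨P, E, hP, ⟨E'⟩⟩ := exists_perm_rep ((H.subgroupOf G).map (QuotientGroup.mk' (center G))) hn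
    (by rw [h5, ← h7])
  exact ⟨P, E, hP, (Nat.card_congr E'.toEquiv).symm.trans h7.symm⟩

theorem sub_transport {A B K : Type*} [Group A] [Group B] [Group K] (E : A ≃* B) (hK : IsSimpleGroup K)
    (h : ∃ L : Subgroup A, Nonempty (K ≃* L)) :
    ∃ L : Subgroup B, IsSimpleGroup L ∧ Nat.card L = Nat.card K := by
  obtain ⟨L, ⟨e⟩⟩ := h
  have e' := (e.trans (equivMapOfInjective L E.toMonoidHom E.injective)).symm
  exact ⟨_, e'.isSimpleGroup, Nat.card_congr e'.toEquiv⟩

/-- a subgroup of determinant one, inside the special linear group -/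
theorem exists_SL {n F : Type*} [Fintype n] [DecidableEq n] [CommRing F] {G : Subgroup (Matrix n n F)ˣ}
    (h : G ≤ (GeneralLinearGroup.det (n := n) (R := F)).ker) :
    ∃ H : Subgroup (SpecialLinearGroup n F), Nonempty (H ≃* G) := by
  have e : (G.comap SpecialLinearGroup.toGL).map SpecialLinearGroup.toGL = G := by
    refine map_comap_eq_self fun g hg => ⟨⟨g.1, ?_⟩, Units.ext rfl⟩
    have := h hg
    rwa [MonoidHom.mem_ker, Units.ext_iff, GeneralLinearGroup.val_det_apply] at this
  exact ⟨_, ⟨(equivMapOfInjective _ _ SpecialLinearGroup.toGL_injective).trans (MulEquiv.subgroupCongr e)⟩⟩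

end

end CfsgH6
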