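/-
Codes for permutation groups.
-/
import Cfsg.Agent.H6.DCg

set_option autoImplicit false

namespace CfsgH6

open CfsgH5 Subgroup MulAction Matrix

noncomputable section

/-- permutation matrices over the field with two elements -/
def permHom (n : ℕ) : Equiv.Perm (Fin n) →* (Matrix (Fin n) (Fin n) (ZMod 2))ˣ :=
  (Matrix.permMatrixHom (R := ZMod 2)).toHomUnits

theorem permHom_inj (n : ℕ) : Function.Injective (permHom n) := fun a b h => by
  have h1 : (a⁻¹).toPEquiv = (b⁻¹).toPEquiv := PEquiv.toMatrix_injective (congrArg Units.val h)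
  refine inv_injective (Equiv.ext fun x => ?_)
  simpa using congrArg (fun f : Fin n ≃. Fin n => f x) h1

/-- codes of permutations -/
def gcPerm (n : ℕ) : GC (ops2 n) (Equiv.Perm (Fin n)) := (mc2 n).units.comap (permHom n) (permHom_inj n)

theorem gcPerm_hf (n : ℕ) (g : Equiv.Perm (Fin n)) :
    (mc2 n).units.code (permHom n g) = (fun x => x) ((gcPerm n).code g) := rfl

theorem gcPerm_lt (n : ℕ) (g : Equiv.Perm (Fin n)) : (gcPerm n).code g < 2 ^ (1 * ((n + 1) * (n + 1))) :=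
  mcode_lt (by norm_num) _

theorem GC.Mem.ins' {O : GOps} {Γ : Type*} [Group Γ] {C : GC O Γ} {R : ℕ → ℕ} {M i : ℕ} (g : Γ)
    (h : Nat.beq (C.code g) (R i) = true) (hp : C.Mem R ⊤ M) : C.Mem R ⊤ (CfsgH6.ins M i) :=
  hp.ins ⟨g, trivial, (beq_true_iff _ _).1 h⟩

theorem via_rep {O O' : GOps} {Γ Γ' : Type*} [Group Γ] [Group Γ'] {C : GC O Γ} {C' : GC O' Γ'}
    {f : Γ →* Γ'} {pr : ℕ → ℕ} (hf : ∀ g, C'.code (f g) = pr (C.code g)) {α : Type*} [MulAction Γ' α]
    {app : ℕ → ℕ → ℕ} {key : ℕ → ℕ} (A : Act C' α app key) {c : ℕ} (h : ∃ x, A.Rep c x) :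
    ∃ x, (Act.via hf A).Rep c x := h

theorem eq_alternating {n : ℕ} {H : Subgroup (Equiv.Perm (Fin n))} (h : 2 * Nat.card H = n.factorial) :
    H = alternatingGroup (Fin n) := by
  refine Equiv.Perm.eq_alternatingGroup_of_index_eq_two ?_
  have := H.index_mul_card
  rw [Nat.card_perm, Nat.card_fin, ← h] at this
  exact Nat.eq_of_mul_eq_mul_right Nat.card_pos this

end

end CfsgH6
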