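/-
A fast test for codes of matrices; normal subgroups inside a central extension.
-/
import Cfsg.Agent.H6.DCh

set_option autoImplicit false

namespace CfsgH6

open CfsgH5 Subgroup MulAction Matrix

noncomputable section

/-- all `N` fields of width `W` are less than `p` -/
def fieldsLt (W N p c : ℕ) : Bool :=
  band (Nat.blt c (Nat.pow 2 (Nat.mul W N))) <| band (Nat.ble p (Nat.pow 2 (Nat.pred W))) <|
  band (Nat.beq (Nat.land c (Nat.mul (ones W N) (Nat.pow 2 (Nat.pred W)))) 0)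
    (Nat.beq (Nat.land (Nat.add c (Nat.mul (ones W N) (Nat.sub (Nat.pow 2 (Nat.pred W)) p)))
      (Nat.mul (ones W N) (Nat.pow 2 (Nat.pred W)))) 0)

theorem lt_of_land {x w : ℕ} (h1 : x < 2 ^ (w + 1)) (h2 : x &&& 2 ^ w = 0) : x < 2 ^ w := by
  rw [Nat.and_two_pow, Nat.mul_eq_zero] at h2
  have h3 : x.testBit w = false := by
    rcases h2 with h | h
    · simpa using h
    · exact absurd h (by positivity)
  by_contra hc
  rw [Nat.testBit_of_two_pow_le_and_two_pow_add_one_gt (not_lt.1 hc) h1] at h3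
  exact absurd h3 (by simp)

theorem fieldsLt_sound {W N p c : ℕ} (hW : 2 ≤ W) (h : fieldsLt W N p c = true) :
    c < 2 ^ (W * N) ∧ ∀ k, k < N → dgt W c k < p := by
  obtain ⟨w, rfl⟩ : ∃ w, W = w + 1 := ⟨W - 1, by omega⟩
  simp only [fieldsLt, band_eq, Bool.and_eq_true, blt_true_iff, ble_true_iff, beq_true_iff, Nat.pow_eq,
    Nat.mul_eq, Nat.pred_succ, Nat.land_eq, Nat.add_eq, Nat.sub_eq, ones_mul hW] at h
  obtain ⟨h1, h2, h3, h4⟩ := h
  have h5 : 2 ^ w < 2 ^ (w + 1) := Nat.pow_lt_pow_right (by norm_num) (by omega)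
  have h6 : ∀ k, k < N → dgt (w + 1) c k < 2 ^ w := fun k hk => by
    have := congrArg (dgt (w + 1) · k) h3
    simp only [dgt_land, dgt_evd fun _ _ => h5, hk, if_true] at this
    exact lt_of_land (dgt_lt _ _ _) (this.trans (by simp [dgt]))
  refine ⟨h1, fun k hk => ?_⟩
  have h7 : ∀ k, k < N → dgt (w + 1) c k + (2 ^ w - p) < 2 ^ (w + 1) := fun k hk => by
    have := h6 k hk
    omega
  rw [evd_dgt (by omega) h1, evd_add] at h4
  have := congrArg (dgt (w + 1) · k) h4
  simp only [dgt_land, dgt_evd fun _ _ => h5, dgt_evd h7, hk, if_true] at this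
  have := lt_of_land (h7 k hk) (this.trans (by simp [dgt]))
  omega

/-- test for the code of a matrix -/
def PP.canF (P : PP) (c : ℕ) : Bool := fieldsLt P.W (Nat.mul P.n P.n) P.p c

theorem PP.canF_sound {P : PP} [Fact (1 < P.p)] (h : P.ok = true) (c : ℕ) (hc : P.canF c = true) :
    ∃ x, (PP.mc h).code x = c := by
  have : NeZero P.p := ⟨by have := Fact.out (p := 1 < P.p); omega⟩
  obtain ⟨h1, h2⟩ := fieldsLt_sound (PP.ok_spec h).1 hc
  refine exists_mcode (by have := PP.ok_spec h; omega) h1 fun i j hi hj => ⟨h2 _ ?_, Or.inl ⟨hi, hj⟩⟩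
  have := Nat.mul_le_mul_left P.n (show j + 1 ≤ P.n by omega)
  rw [Nat.mul_succ] at this
  exact lt_of_lt_of_le (by omega) this

theorem band_intro {a b : Bool} (h : a = true) (h' : b = true) : band a b = true := by simp [h, h']

theorem allL_app {α : Type} {f : α → Bool} {L L' : List α} (h : allL L f = true) (h' : allL L' f = true) :
    allL (L ++ L') f = true := by
  rw [allL_iff] at h h' ⊢
  exact forall_app h h'

variable {O : GOps} {Γ : Type*} [Group Γ] {C : GC O Γ} {R : ℕ → ℕ}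

theorem conjA_app {M g : ℕ} {L L' : List ℕ} (h : conjA O R M g L = true) (h' : conjA O R M g L' = true) :
    conjA O R M g (L ++ L') = true := allL_app h h'

theorem conjB_app {M g : ℕ} {L L' : List ℕ} (h : conjB O R M g L = true) (h' : conjB O R M g L' = true) :
    conjB O R M g (L ++ L') = true := allL_app h h'

theorem commL_app {z : ℕ} {L L' : List ℕ} (h : commL O R z L = true) (h' : commL O R z L' = true) :
    commL O R z (L ++ L') = true := allL_app h h'

theorem maxChk_app {M M' : ℕ} {L L' : List (ℕ × List ℕ)} (h : maxChk O R M M' L = true)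
    (h' : maxChk O R M M' L' = true) : maxChk O R M M' (L ++ L') = true := allL_app h h'

theorem GC.In.mul_eq {a b c d : ℕ} (ha : C.In ⊤ (R a)) (hb : C.In ⊤ (R b)) (hc : C.In ⊤ (R c))
    (hd : C.In ⊤ (R d)) (h : Nat.beq (O.mul (R a) (R b)) (O.mul (R c) (R d)) = true) :
    C.el (R a) * C.el (R b) = C.el (R c) * C.el (R d) := by
  rwa [beq_true_iff, ← ha.code_el, ← hb.code_el, ← hc.code_el, ← hd.code_el, ← C.code_mul, ← C.code_mul,
    C.inj.eq_iff] at h

theorem eq_bot_of_prime [Finite Γ] {N Z : Subgroup Γ} (h : N ≤ Z) (hp : (Nat.card Z).Prime)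
    (hn : ¬ Z ≤ N) : N ≤ ⊥ := by
  rcases (Nat.dvd_prime hp).1 (card_dvd_of_le h) with h1 | h1
  · exact (card_eq_one.1 h1).le
  · exact absurd (eq_of_le_of_card_ge h h1.ge).ge hn

/-- a normal subgroup inside a central extension whose centre is not weakly closed -/
theorem core_of_central [Finite Γ] {G H Z : Subgroup Γ} (hHG : H ≤ G)
    (hd : ∀ N, N ≤ H → NormBy H N → N ≤ Z ∨ N = H) (hp : (Nat.card Z).Prime) (hZ : Z ≤ H) {d g c : Γ}
    (hdZ : d ∈ Z) (hc : ∀ y ∈ Z, ∀ h ∈ H, h * y = y * h) (hg : g ∈ G) (e : c * g = g * d)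
    (hn : c * d ≠ d * c) (N : Subgroup Γ) (h : N ≤ H) (hN : NormBy G N) : N ≤ ⊥ := by
  have h1 : ¬ Z ≤ N := fun h1 => hn (hc d hdZ c (h (eq_mul_inv_of_mul_eq e ▸ hN g hg d (h1 hdZ))))
  rcases hd N h (hN.mono hHG) with h2 | h2
  · exact eq_bot_of_prime h2 hp h1
  · exact absurd (h2 ▸ hZ) h1

/-- a homomorphism that is injective on the small normal subgroups -/
theorem card_le_map_of_dich [Finite Γ] {Γ' : Type*} [Group Γ'] (f : Γ →* Γ') {D Z : Subgroup Γ}
    (hd : ∀ N, N ≤ D → NormBy D N → N ≤ Z ∨ N = D) (hp : (Nat.card Z).Prime) (hZ : Z ≤ D)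
    (hf : ¬ Z ≤ f.ker) : Nat.card D ≤ Nat.card (D.map f) := by
  have h1 : ¬ Z ≤ f.ker ⊓ D := fun h => hf (h.trans inf_le_left)
  have h2 : f.ker ⊓ D ≤ ⊥ := by
    rcases hd (f.ker ⊓ D) inf_le_right (fun g hg n hn =>
      ⟨f.normal_ker.conj_mem n hn.1 g, D.mul_mem (D.mul_mem hg hn.2) (D.inv_mem hg)⟩) with h | h
    · exact eq_bot_of_prime h hp h1
    · exact absurd (h.symm ▸ hZ) h1
  have h3 := card_mul_index (f.ker.subgroupOf D)
  rw [← relIndex, relIndex_ker, (subgroupOf_eq_bot.2 (disjoint_iff_inf_le.2 h2)), card_bot, one_mul] at h3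
  exact h3.ge

theorem not_le_ker {O' : GOps} {Γ' : Type*} [Group Γ'] {C' : GC O' Γ'} {f : Γ →* Γ'} {pr : ℕ → ℕ}
    (hf : ∀ g, C'.code (f g) = pr (C.code g)) {z : ℕ} {Z : Subgroup Γ} (hz : C.In Z (R z))
    (h : bnot (Nat.beq (pr (R z)) O'.one) = true) : ¬ Z ≤ f.ker := fun h1 => by
  simp only [bnot_eq, Bool.not_eq_true', ← Bool.not_eq_true, beq_true_iff] at h
  exact h (by rw [← hz.code_el, ← hf, MonoidHom.mem_ker.1 (h1 hz.el_mem), C'.code_one])

end

end CfsgH6
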