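/-
Centralisers from a double coset decomposition, counting with a predicate, extraspecial groups.
-/
import Cfsg.Agent.H6.DCi
import Cfsg.Agent.H2.Extraspecial

set_option autoImplicit false

namespace CfsgH6

open CfsgH5 Subgroup MulAction
open scoped commutatorElement

noncomputable section

variable {Γ : Type*} [Group Γ]

theorem cent_DC1 [Finite Γ] {H T : Subgroup Γ} {g z : Γ} (hTH : T ≤ H)
    (hT : ∀ τ ∈ T, g * τ * g⁻¹ ∈ H) {X : Set Γ}
    (hX : ∀ a ∈ H, ∀ b ∈ H, g * (b * z * b⁻¹) * g⁻¹ = a⁻¹ * z * a → b * z * b⁻¹ ∈ X) :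
    (DC1 H g ∩ centralizer {z}).ncard * Nat.card T ≤
      X.ncard * (Nat.card (H ⊓ centralizer {z} : Subgroup Γ) *
        Nat.card (H ⊓ centralizer {z} : Subgroup Γ)) := by
  classical
  let P : Γ × Γ → Prop := fun p => p.1 ∈ H ∧ p.2 ∈ H ∧ p.1 * g * p.2 * z = z * (p.1 * g * p.2)
  have hP : ∀ p, P p → g * (p.2 * z * p.2⁻¹) * g⁻¹ = p.1⁻¹ * z * p.1 := fun p hp => by
    have h1 : p.1⁻¹ * (p.1 * g * p.2 * z) * (p.2⁻¹ * g⁻¹) =
      p.1⁻¹ * (z * (p.1 * g * p.2)) * (p.2⁻¹ * g⁻¹) := by rw [hp.2.2]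
    simpa [mul_assoc] using h1
  have h1 : ∀ y : ↥(DC1 H g ∩ centralizer {z}), ∃ p, P p ∧ p.1 * g * p.2 = y := by
    rintro ⟨_, ⟨a, ha, b, hb, rfl⟩, hy⟩
    exact ⟨(a, b), ⟨ha, hb, (mem_centralizer_singleton_iff.1 hy)⟩, rfl⟩
  choose s hs hs' using h1
  have h2 : ∀ τ : Γ, ∃ q : Γ × Γ, ∀ p, P p → p.2 * z * p.2⁻¹ = τ → P q ∧ q.2 * z * q.2⁻¹ = τ := by
    intro τ
    by_cases h : ∃ p, P p ∧ p.2 * z * p.2⁻¹ = τ
    · obtain ⟨p, hp⟩ := h
      exact ⟨p, fun _ _ _ => hp⟩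
    · exact ⟨(1, 1), fun p h1 h2 => absurd ⟨p, h1, h2⟩ h⟩
  choose r hr using h2
  let f : ↥(DC1 H g ∩ centralizer {z}) × T → {p // P p} := fun y =>
    ⟨((s y.1).1 * (g * y.2 * g⁻¹)⁻¹, y.2 * (s y.1).2), H.mul_mem (hs _).1 (H.inv_mem (hT _ y.2.2)),
      H.mul_mem (hTH y.2.2) (hs _).2.1, by
        have e : (s y.1).1 * (g * y.2 * g⁻¹)⁻¹ * g * (y.2 * (s y.1).2) = (s y.1).1 * g * (s y.1).2 := by
          group
        show _ * g * _ * z = z * (_ * g * _)
        rw [e]; exact (hs _).2.2⟩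
  have hf : Function.Injective f := by
    rintro ⟨y, τ⟩ ⟨y', τ'⟩ e
    have e1 := congrArg (fun p : {p // P p} => p.1.1 * g * p.1.2) e
    have e2 := congrArg (fun p : {p // P p} => p.1.2) e
    have e3 : (s y).1 * g * (s y).2 = (s y').1 * g * (s y').2 := by
      simpa [f, mul_assoc] using e1
    rw [hs', hs'] at e3
    obtain rfl : y = y' := Subtype.ext e3
    exact Prod.ext rfl (Subtype.ext (mul_right_cancel e2))
  let k : {p // P p} → X × (H ⊓ centralizer {z} : Subgroup Γ) × (H ⊓ centralizer {z} : Subgroup Γ) :=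
    fun p => (⟨_, hX _ p.2.1 _ p.2.2.1 (hP _ p.2)⟩,
      ⟨p.1.1 * (r (p.1.2 * z * p.1.2⁻¹)).1⁻¹, H.mul_mem p.2.1 (H.inv_mem (hr _ _ p.2 rfl).1.1), by
        have a1 := hP _ p.2
        have a2 := hP _ (hr _ _ p.2 rfl).1
        rw [(hr _ _ p.2 rfl).2, a1] at a2
        refine mem_centralizer_singleton_iff.2 ?_
        generalize (r (p.1.2 * z * p.1.2⁻¹)).1 = c at a2
        have : p.1.1 * (p.1.1⁻¹ * z * p.1.1) * c⁻¹ = p.1.1 * (c⁻¹ * z * c) * c⁻¹ := by rw [a2]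
        simpa [mul_assoc] using this.symm⟩,
      ⟨(r (p.1.2 * z * p.1.2⁻¹)).2⁻¹ * p.1.2, H.mul_mem (H.inv_mem (hr _ _ p.2 rfl).1.2.1) p.2.2.1, by
        have a2 := (hr _ _ p.2 rfl).2
        refine mem_centralizer_singleton_iff.2 ?_
        generalize (r (p.1.2 * z * p.1.2⁻¹)).2 = c at a2
        have : c⁻¹ * (c * z * c⁻¹) * p.1.2 = c⁻¹ * (p.1.2 * z * p.1.2⁻¹) * p.1.2 := by rw [a2]
        simpa [mul_assoc] using this.symm⟩)
  have hk : Function.Injective k := by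
    intro p q e
    have e1 : p.1.2 * z * p.1.2⁻¹ = q.1.2 * z * q.1.2⁻¹ := congrArg (fun x => (x.1 : Γ)) e
    have e2 := congrArg (fun x => (x.2.1 : Γ)) e
    have e3 := congrArg (fun x => (x.2.2 : Γ)) e
    simp only [k, e1] at e2 e3
    exact Subtype.ext (Prod.ext (mul_right_cancel e2) (mul_left_cancel e3))
  have := Nat.card_le_card_of_injective _ (hk.comp hf)
  rwa [Nat.card_prod, Nat.card_prod, Nat.card_prod] at this

theorem cent_bound {a t c x u m y : ℕ} (h : a * y ≤ x * (u * u)) (ht : t ≤ y) (hx : x ≤ c) {n : ℕ}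
    (hu : u ≤ n) (e : band (Nat.blt 0 t) (Nat.ble (Nat.mul c n) (Nat.mul m t)) = true) : a ≤ u * m := by
  simp only [band_eq, Bool.and_eq_true, blt_true_iff, ble_true_iff, Nat.mul_eq] at e
  refine Nat.le_of_mul_le_mul_right (c := t) ?_ e.1
  calc a * t ≤ a * y := Nat.mul_le_mul_left _ ht
    _ ≤ c * (u * n) := h.trans (Nat.mul_le_mul hx (Nat.mul_le_mul_left _ hu))
    _ = u * (c * n) := by ring
    _ ≤ u * (m * t) := Nat.mul_le_mul_left _ e.2
    _ = u * m * t := by ring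

theorem cent_total [Finite Γ] {G H : Subgroup Γ} {z : Γ} (L : List (Γ × ℕ))
    (hG : ∀ x ∈ G, x ∈ DCs H {g | g ∈ L.map Prod.fst})
    (hL : ∀ p ∈ L, (DC1 H p.1 ∩ centralizer {z}).ncard ≤
      Nat.card (H ⊓ centralizer {z} : Subgroup Γ) * p.2) :
    Nat.card (G ⊓ centralizer {z} : Subgroup Γ) ≤
      Nat.card (H ⊓ centralizer {z} : Subgroup Γ) * (1 + (L.map Prod.snd).sum) := by
  have h1 : ∀ L : List (Γ × ℕ), (∀ p ∈ L, (DC1 H p.1 ∩ centralizer {z}).ncard ≤
      Nat.card (H ⊓ centralizer {z} : Subgroup Γ) * p.2) →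
      (DCs H {g | g ∈ L.map Prod.fst} ∩ centralizer {z}).ncard ≤
        Nat.card (H ⊓ centralizer {z} : Subgroup Γ) * (1 + (L.map Prod.snd).sum) := by
    intro L hL
    induction L with
    | nil =>
      have : DCs H {g | g ∈ ([] : List (Γ × ℕ)).map Prod.fst} ∩ centralizer {z} =
        (H ⊓ centralizer {z} : Subgroup Γ) := by ext x; simp [DCs]
      rw [this, List.map_nil, List.sum_nil, add_zero, mul_one]; exact le_of_eq rfl
    | cons a L ih =>
      have : DCs H {g | g ∈ (a :: L).map Prod.fst} ∩ centralizer {z} ⊆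
          (DC1 H a.1 ∩ centralizer {z}) ∪ (DCs H {g | g ∈ L.map Prod.fst} ∩ centralizer {z}) := by
        rintro x ⟨h | ⟨g, hg, h⟩, hx⟩
        · exact Or.inr ⟨Or.inl h, hx⟩
        · rcases List.mem_cons.1 hg with rfl | hg
          · exact Or.inl ⟨h, hx⟩
          · exact Or.inr ⟨Or.inr ⟨g, hg, h⟩, hx⟩
      refine (Set.ncard_le_ncard this).trans ((Set.ncard_union_le _ _).trans ?_)
      have h2 := hL a List.mem_cons_self
      have h3 := ih fun p hp => hL p (List.mem_cons_of_mem _ hp)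
      simp only [List.map_cons, List.sum_cons]
      nlinarith
  refine le_trans ?_ (h1 L hL)
  exact Set.ncard_le_ncard (s := ((G ⊓ centralizer {z} : Subgroup Γ) : Set Γ))
    fun x hx => ⟨hG x hx.1, hx.2⟩

variable {O : GOps} {C : GC O Γ} {R : ℕ → ℕ}

theorem GC.card_cent [Finite Γ] {G H : Subgroup Γ} {z : Γ} {MI : ℕ} (L : List (ℕ × ℕ))
    (hG : ∀ x ∈ G, x ∈ DCs H (C.els R MI))
    (hL : ∀ p ∈ L, (DC1 H (C.el (R p.1)) ∩ centralizer {z}).ncard ≤
      Nat.card (H ⊓ centralizer {z} : Subgroup Γ) * p.2) {n : ℕ}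
    (h : band (allL L fun p => Nat.blt p.1 1024) (band (subM MI (insL (L.map Prod.fst) 0))
      (Nat.beq n (1 + (L.map Prod.snd).sum))) = true) :
    Nat.card (G ⊓ centralizer {z} : Subgroup Γ) ≤ n * Nat.card (H ⊓ centralizer {z} : Subgroup Γ) := by
  simp only [band_eq, Bool.and_eq_true, beq_true_iff, allL_iff, blt_true_iff] at h
  have := cent_total (G := G) (H := H) (z := z) (L.map fun p => (C.el (R p.1), p.2)) (fun x hx => ?_) (by
    intro p hp
    obtain ⟨q, hq, rfl⟩ := List.mem_map.1 hp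
    exact hL q hq)
  · rw [List.map_map] at this
    rw [h.2.2, mul_comm]; exact this
  · rcases hG x hx with h' | ⟨_, ⟨i, hi, rfl⟩, h'⟩
    · exact Or.inl h'
    · obtain ⟨e, he, rfl⟩ := ((testBit_insL _ _ _).1 (subM_sound h.2.1 hi)).resolve_left (by simp)
      obtain ⟨p, hp, rfl⟩ := List.mem_map.1 he
      rw [hd_eq, Nat.mod_eq_of_lt (h.1 p hp)] at h'
      exact Or.inr ⟨_, List.mem_map.2 ⟨_, List.mem_map.2 ⟨p, hp, rfl⟩, rfl⟩, h'⟩

/-- the action of a coded group on itself -/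
def Act.self (C : GC O Γ) : Act C Γ O.mul (fun x => x) :=
  Act.ofEnc C O.mul C.code C.inj fun g x => (C.code_mul g x).symm

theorem Act.self_rep (C : GC O Γ) : (Act.self C).Rep O.one 1 := C.code_one.symm

/-- a table which fails on the keys without the property `f` -/
def tabP (n : ℕ) (f : ℕ → Bool) (tab : ℕ → ℕ) (x : ℕ) : ℕ := bif' (f x) (tab x) (Nat.shiftLeft n 16)

theorem Act.count_pred [Finite Γ] {α : Type*} [MulAction Γ α] {app : ℕ → ℕ → ℕ} {key : ℕ → ℕ}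
    {A : Act C α app key} {tab : ℕ → ℕ} {f : ℕ → Bool} {T : Subgroup Γ} {β : α}
    {L : List (ℕ × ℕ × ℕ × ℕ)} {n : ℕ}
    (h : ∀ p ∈ L, A.Seen (tabP n f tab) T (C.wd R p.2.1 • β) p.2.2.1 p.2.2.2)
    (hc : cover n [0] L 0 = true) {P : Γ → Prop}
    (hP : ∀ τ ∈ T, ∀ v, A.Rep v (τ • β) → f (key v) = true → ¬ P τ) :
    {τ | τ ∈ T ∧ P τ}.ncard + n ≤ Nat.card T := by
  have : ∀ k : Fin n, ∃ τ, (τ ∈ T ∧ ¬ P τ) ∧ ∃ v, A.Rep v (τ • β) ∧ tabP n f tab (key v) >>> 16 = k := by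
    intro k
    obtain ⟨p, hp, h1, h2, h3⟩ := cover_sound hc (Nat.zero_le _) k.2
    obtain ⟨τ, hτ, v, hv, e⟩ := h p hp k h2 h3
    rw [List.mem_singleton.1 h1, GC.wd_zero, one_smul] at hv
    refine ⟨τ, ⟨hτ, hP τ hτ v hv ?_⟩, v, hv, e⟩
    by_contra hf
    rw [tabP, bif'_eq, if_neg hf, Nat.shiftLeft_eq', Nat.shiftLeft_shiftRight] at e
    exact absurd k.2 (by omega)
  choose y hy using this
  have hi : Function.Injective y := fun i j hij => by
    obtain ⟨v, hv, e⟩ := (hy i).2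
    obtain ⟨w, hw, e'⟩ := (hy j).2
    rw [(A.key_iff _ _ _ _ hv hw).2 (by rw [hij])] at e
    exact Fin.ext (e.symm.trans e')
  have h1 : n ≤ {τ | τ ∈ T ∧ ¬ P τ}.ncard := by
    have := Set.ncard_le_ncard (s := Set.range y) (t := {τ | τ ∈ T ∧ ¬ P τ})
      (by rintro _ ⟨k, rfl⟩; exact (hy k).1)
    rwa [Set.ncard_range_of_injective hi, Nat.card_eq_fintype_card, Fintype.card_fin] at this
  have h2 : {τ | τ ∈ T ∧ P τ}.ncard + {τ | τ ∈ T ∧ ¬ P τ}.ncard = Nat.card T := by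
    rw [← Set.ncard_union_eq (by rw [Set.disjoint_left]; exact fun x h1 h2 => h2.2 h1.2)]
    show _ = (T : Set Γ).ncard
    congr 1; ext x; simp only [Set.mem_union, Set.mem_ofPred_eq, SetLike.mem_coe]; tauto
  omega

theorem count_le {x n t u c : ℕ} (h : x + n ≤ t) (ht : t ≤ u) (e : Nat.ble u (Nat.add c n) = true) :
    x ≤ c := by
  rw [ble_true_iff, Nat.add_eq] at e; omega

/-- the identity, or an element which does not commute with one of the registers `us` -/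
def ncommF (app : ℕ → ℕ → ℕ) (key : ℕ → ℕ) (R : ℕ → ℕ) (one : ℕ) (us : List ℕ) (w c : ℕ) : Bool :=
  bor (Nat.beq c one) (fH (app c w) fun y => anyL us fun u =>
    bnot (Nat.beq (fH (fH (app (R u) w) (app c)) key) (fH (app (R u) y) key)))

theorem ncommF_sound {α : Type*} [MulAction Γ α] {app : ℕ → ℕ → ℕ} {key : ℕ → ℕ}
    {A : Act C α app key} {M w : ℕ} {x : α} {us : List ℕ} (hM : C.Mem R ⊤ M) (hw : A.Rep w x)
    (hu : allL us (tb M) = true) {T : Subgroup Γ} (τ : Γ) (_ : τ ∈ T) (v : ℕ)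
    (hv : (Act.self C).Rep v (τ • (1 : Γ))) (hf : ncommF app key R O.one us w v = true) :
    ¬ (τ ≠ 1 ∧ ∀ u ∈ us, τ * C.el (R u) = C.el (R u) * τ) := by
  have hv : v = C.code τ := by rw [smul_eq_mul, mul_one] at hv; exact hv
  subst hv
  simp only [ncommF, bor_eq, Bool.or_eq_true, beq_true_iff, fH_eq, anyL_iff, bnot_eq,
    Bool.not_eq_true', ← Bool.not_eq_true] at hf
  rintro ⟨h1, h2⟩
  rcases hf with hf | ⟨u, hu', hf⟩
  · exact h1 (C.inj (hf.trans C.code_one.symm))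
  · have h3 := hM.get ((allL_iff _ _).1 hu u hu')
    refine hf ((A.key_iff _ _ _ _ (A.app_ok τ _ _ (Act.app_el h3 hw))
      (Act.app_el h3 (A.app_ok τ _ _ hw))).2 ?_)
    rw [← mul_smul, ← mul_smul, h2 u hu']

/-- conjugates of `z` in an abelian normal subgroup -/
theorem abel_X {H Q : Subgroup Γ} {g z : Γ} (hn : NormBy H Q) (hz : z ∈ Q) (h1 : z ≠ 1)
    (hc : ∀ y ∈ Q, ∀ x ∈ Q, x * y = y * x) {ι : Type*} {us : List ι} {e : ι → Γ}
    (hu : ∀ u ∈ us, g * e u * g⁻¹ ∈ Q) : ∀ a ∈ H, ∀ b ∈ H, g * (b * z * b⁻¹) * g⁻¹ = a⁻¹ * z * a →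
      b * z * b⁻¹ ∈ {τ | τ ∈ Q ∧ (τ ≠ 1 ∧ ∀ u ∈ us, τ * e u = e u * τ)} := by
  intro a ha b hb h
  refine ⟨hn b hb z hz, by simpa using h1, fun u hu' => ?_⟩
  have h2 : a⁻¹ * z * a ∈ Q := by simpa using hn _ (H.inv_mem ha) z hz
  have h3 := hc _ (hu u hu') _ h2
  rw [← h] at h3
  have h4 : g * (b * z * b⁻¹ * e u) * g⁻¹ = g * (e u * (b * z * b⁻¹)) * g⁻¹ := by
    simpa [mul_assoc] using h3
  exact mul_left_cancel (mul_right_cancel h4)

theorem normBy_gen [Finite Γ] {N : Subgroup Γ} {M : ℕ} {L : List ℕ}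
    (h : ∀ i ∈ L, ∀ τ ∈ N, C.el (R i) * τ * (C.el (R i))⁻¹ ∈ N)
    (e : band (allL L fun i => Nat.blt i 1024) (subM M (insL L 0)) = true) : NormBy (C.gen R M) N := by
  have := GC.forall_els (P := fun g => ∀ τ ∈ N, g * τ * g⁻¹ ∈ N) h e
  refine GC.gen_induction (by simp) (fun a b ha hb τ hτ => ?_) fun i hi => this _ ⟨i, hi, rfl⟩
  simpa [mul_assoc] using ha _ (hb τ hτ)

theorem cent_of_max {H L : Subgroup Γ} {z : Γ} (hm : ∀ K, L ≤ K → K ≤ H → K = L ∨ K = H) (hL : L ≤ H)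
    (hc : ∀ g ∈ L, g * z = z * g) {t : Γ} (ht : t ∈ H) (hn : t * z ≠ z * t) :
    H ⊓ centralizer {z} = L :=
  (hm _ (le_inf hL fun g hg => mem_centralizer_singleton_iff.2 (hc g hg)) inf_le_left).resolve_right
    fun h => hn (mem_centralizer_singleton_iff.1 (h.ge ht).2)

theorem cent_eq [Finite Γ] {G K : Subgroup Γ} {z : Γ} (hK : K ≤ G) (hc : ∀ g ∈ K, g * z = z * g) {n : ℕ}
    (h1 : Nat.card (G ⊓ centralizer {z} : Subgroup Γ) ≤ n) (h2 : n ≤ Nat.card K) :
    G ⊓ centralizer {z} = K :=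
  (eq_of_le_of_card_ge (le_inf hK fun g hg => mem_centralizer_singleton_iff.2 (hc g hg))
    (h1.trans h2)).symm

/-! ### Extraspecial groups -/

/-- a strictly decreasing chain of centralisers -/
def centChain (O : GOps) (R : ℕ → ℕ) (M : ℕ) (L : List (ℕ × ℕ)) : Bool :=
  List.rec (motive := fun _ => Bool) true (fun p L ih => band (tb M p.1) <| band (tb M p.2) <|
    band (bnot (Nat.beq (O.mul (R p.1) (R p.2)) (O.mul (R p.2) (R p.1)))) <|
    band (allL L fun q => Nat.beq (O.mul (R q.1) (R p.2)) (O.mul (R p.2) (R q.1))) ih) L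

theorem centChain_sound [Finite Γ] {K : Subgroup Γ} {M : ℕ} (hM : C.Mem R K M) (L : List (ℕ × ℕ))
    (h : centChain O R M L = true) : (∀ p ∈ L, C.In K (R p.1)) ∧
      2 ^ L.length * Nat.card (K ⊓ centralizer {x | ∃ p ∈ L, x = C.el (R p.1)} : Subgroup Γ) ≤
        Nat.card K := by
  induction L with
  | nil => exact ⟨forall_nil, by simpa using card_le_of_le inf_le_left⟩
  | cons p L ih =>
    have h : (band (tb M p.1) <| band (tb M p.2) <|
      band (bnot (Nat.beq (O.mul (R p.1) (R p.2)) (O.mul (R p.2) (R p.1)))) <|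
      band (allL L fun q => Nat.beq (O.mul (R q.1) (R p.2)) (O.mul (R p.2) (R q.1)))
        (centChain O R M L)) = true := h
    simp only [band_eq, Bool.and_eq_true, allL_iff] at h
    obtain ⟨h1, h2, h3, h4, h5⟩ := h
    obtain ⟨i1, i2⟩ := ih h5
    have h1 := hM.get h1
    have h2 := hM.get h2
    refine ⟨forall_cons h1 i1, le_trans ?_ i2⟩
    rw [List.length_cons, pow_succ, mul_assoc]
    refine Nat.mul_le_mul_left _ ?_
    have hle : (K ⊓ centralizer {x | ∃ q ∈ p :: L, x = C.el (R q.1)} : Subgroup Γ) ≤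
        K ⊓ centralizer {x | ∃ q ∈ L, x = C.el (R q.1)} :=
      inf_le_inf_left _ (centralizer_le fun _ ⟨q, hq, e⟩ => ⟨q, List.mem_cons_of_mem _ hq, e⟩)
    obtain ⟨c, hc⟩ := card_dvd_of_le hle
    have hlt : Nat.card (K ⊓ centralizer {x | ∃ q ∈ p :: L, x = C.el (R q.1)} : Subgroup Γ) <
        Nat.card (K ⊓ centralizer {x | ∃ q ∈ L, x = C.el (R q.1)} : Subgroup Γ) := by
      refine not_le.1 fun hc' => GC.In.not_comm h1.top h2.top h3 ?_
      have : C.el (R p.2) ∈ (K ⊓ centralizer {x | ∃ q ∈ p :: L, x = C.el (R q.1)} : Subgroup Γ) := by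
        rw [eq_of_le_of_card_ge hle hc']
        refine ⟨h2.el_mem, ?_⟩
        rintro _ ⟨q, hq, rfl⟩
        exact GC.In.mul_eq (i1 q hq).top h2.top h2.top (i1 q hq).top (h4 q hq)
      exact this.2 _ ⟨p, List.mem_cons_self, rfl⟩
    rw [hc] at hlt ⊢
    have : 2 ≤ c := by
      by_contra h
      have : c = 0 ∨ c = 1 := by omega
      rcases this with rfl | rfl <;> simp at hlt
    nlinarith

theorem extraspecial_of [Finite Γ] {S X : Set Γ} {z : Γ} (hz : z ∈ closure S) (h1 : z ≠ 1)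
    (h2 : z ^ 2 = 1) (hc : ∀ g ∈ closure S, g * z = z * g)
    (hS : ∀ a ∈ S, (a * a = 1 ∨ a * a = z) ∧ ∀ b ∈ S, a * b = b * a ∨ a * b = z * (b * a))
    (hX : X ⊆ closure S) (hc2 : Nat.card (closure S ⊓ centralizer X : Subgroup Γ) ≤ 2)
    (hc3 : 2 < Nat.card (closure S)) : Cfsg.IsExtraspecial 2 (closure S) := by
  have := Fact.mk Nat.prime_two
  let z' : closure S := ⟨z, hz⟩
  have hz' : z' ∈ center (closure S) := mem_center_iff.2 fun g => Subtype.ext (hc g g.2)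
  have hN : (zpowers z').Normal := ⟨fun n hn g => by
    rw [mem_center_iff.1 (zpowers_le.2 hz' hn) g, mul_inv_cancel_right]; exact hn⟩
  let π := QuotientGroup.mk' (zpowers z')
  have hπ : π z' = 1 := (QuotientGroup.eq_one_iff _).2 (mem_zpowers _)
  have a1 : ∀ x hx y hy, Commute (π ⟨x, hx⟩) (π ⟨y, hy⟩) := by
    intro x hx y hy
    induction hx, hy using closure_induction₂ with
    | mem x y hx hy =>
      show _ * _ = _ * _
      rw [← map_mul, ← map_mul]
      rcases (hS x hx).2 y hy with h | h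
      · exact congrArg π (Subtype.ext h)
      · rw [← one_mul (π (_ * ⟨x, _⟩)), ← hπ, ← map_mul]; exact congrArg π (Subtype.ext h)
    | one_left x hx => exact (map_one π).symm ▸ Commute.one_left _
    | one_right x hx => exact (map_one π).symm ▸ Commute.one_right _
    | mul_left x y w hx hy hw h h' => exact (map_mul π ⟨x, hx⟩ ⟨y, hy⟩).symm ▸ h.mul_left h'
    | mul_right y w x hy hw hx h h' => exact (map_mul π ⟨y, hy⟩ ⟨w, hw⟩).symm ▸ h.mul_right h'
    | inv_left x y hx hy h => exact (map_inv π ⟨x, hx⟩).symm ▸ h.inv_left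
    | inv_right x y hx hy h => exact (map_inv π ⟨y, hy⟩).symm ▸ h.inv_right
  have a2 : ∀ x hx, π ⟨x, hx⟩ ^ 2 = 1 := by
    intro x hx
    induction hx using closure_induction with
    | mem x hx =>
      rw [pow_two, ← map_mul]
      rcases (hS x hx).1 with h | h
      · exact (congrArg π (Subtype.ext h)).trans (map_one π)
      · exact (congrArg π (Subtype.ext h)).trans hπ
    | one => exact (map_one π).symm ▸ one_pow _
    | mul x y hx hy h h' =>
      have := (a1 x hx y hy).mul_pow 2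
      rw [h, h', mul_one, ← map_mul] at this
      exact this
    | inv x hx h =>
      have : (π ⟨x, hx⟩)⁻¹ ^ 2 = 1 := by rw [inv_pow, h, inv_one]
      rwa [← map_inv] at this
  have hcz : Nat.card (zpowers z) = 2 := by rw [Nat.card_zpowers, orderOf_eq_prime h2 h1]
  have hzz : zpowers z = closure S ⊓ centralizer X :=
    eq_of_le_of_card_ge (zpowers_le.2 ⟨hz, fun x hx => hc x (hX hx)⟩) (hcz ▸ hc2)
  refine CfsgH2.isExtraspecial_of_sympl (z := z') ⟨hz', fun h => h1 (congrArg Subtype.val h),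
    Subtype.ext h2, mem_top _, fun x _ y _ => ?_, fun x _ => ?_, fun x hx => ?_⟩ fun h => ?_
  · rw [← QuotientGroup.eq_one_iff]
    show π _ = 1
    rw [map_commutatorElement]
    exact (a1 _ x.2 _ y.2).commutator_eq
  · rw [← QuotientGroup.eq_one_iff]
    exact (map_pow π x 2).trans (a2 _ x.2)
  · have : (x : Γ) ∈ zpowers z := by
      rw [hzz]
      exact ⟨x.2, fun y hy => congrArg Subtype.val (hx.2 ⟨y, hX hy⟩ (mem_top _))⟩
    obtain ⟨k, hk⟩ := this
    exact ⟨k, Subtype.ext hk⟩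
  · have : Nat.card (zpowers z') = 2 := by
      rw [Nat.card_zpowers, orderOf_eq_prime (Subtype.ext h2) fun h => h1 (congrArg Subtype.val h)]
    rw [h, card_top] at this
    omega

/-- squares and commutators of the registers in a list -/
def pairChk (O : GOps) (R : ℕ → ℕ) (z : ℕ) (L : List ℕ) : Bool :=
  allL L fun a => band (fH (O.mul (R a) (R a)) fun x => bor (Nat.beq x O.one) (Nat.beq x (R z)))
    (allL L fun b => fH (O.mul (R a) (R b)) fun x => fH (O.mul (R b) (R a)) fun y =>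
      bor (Nat.beq x y) (Nat.beq x (O.mul (R z) y)))

theorem GC.extraspecial [Finite Γ] {M M' z n : ℕ} {L : List ℕ} {P : List (ℕ × ℕ)}
    (hM : C.Mem R (C.gen R M) M') (hv : C.Mem R ⊤ M) (hz : C.In (C.gen R M) (R z))
    (h1 : C.el (R z) ^ 2 = 1 ∧ C.el (R z) ≠ 1) (hc : ∀ g ∈ C.gen R M, g * C.el (R z) = C.el (R z) * g)
    (h2 : band (pairChk O R z L) (band (allL L fun i => Nat.blt i 1024) (subM M (insL L 0))) = true)
    (h3 : centChain O R M' P = true) (h4 : Nat.card (C.gen R M) = n)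
    (h5 : band (Nat.blt 2 n) (Nat.beq n (Nat.mul (Nat.pow 2 P.length) 2)) = true) :
    Cfsg.IsExtraspecial 2 (C.gen R M) := by
  rw [band_eq, Bool.and_eq_true] at h2 h5
  obtain ⟨h6, h7⟩ := centChain_sound hM P h3
  have hL : ∀ g ∈ C.els R M, ∃ a ∈ L, C.In ⊤ (R a) ∧ g = C.el (R a) := by
    have h2 := h2.2
    simp only [band_eq, Bool.and_eq_true, allL_iff, blt_true_iff] at h2
    rintro _ ⟨i, hi, rfl⟩
    obtain ⟨e, he, rfl⟩ := ((testBit_insL _ _ _).1 (subM_sound h2.2 hi)).resolve_left (by simp)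
    have := hv _ hi
    rw [hd_eq, Nat.mod_eq_of_lt (h2.1 e he)] at this ⊢
    exact ⟨e, he, this, rfl⟩
  refine extraspecial_of (X := {x | ∃ p ∈ P, x = C.el (R p.1)}) hz.el_mem h1.2 h1.1 hc (fun a ha => ?_)
    ?_ ?_ ?_
  · obtain ⟨a, ha', ia, rfl⟩ := hL a ha
    have h8 := (allL_iff _ _).1 h2.1 a ha'
    simp only [band_eq, Bool.and_eq_true, allL_iff, fH_eq, bor_eq, Bool.or_eq_true, beq_true_iff] at h8
    refine ⟨?_, fun b hb => ?_⟩
    · have := h8.1
      rwa [← ia.code_el, ← C.code_mul, ← C.code_one, ← hz.code_el, C.inj.eq_iff, C.inj.eq_iff] at this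
    · obtain ⟨b, hb', ib, rfl⟩ := hL b hb
      have := h8.2 b hb'
      rwa [← ia.code_el, ← ib.code_el, ← hz.code_el, ← C.code_mul, ← C.code_mul, ← C.code_mul,
        C.inj.eq_iff, C.inj.eq_iff] at this
  · rintro _ ⟨p, hp, rfl⟩
    exact (h6 p hp).el_mem
  · rw [h4, (beq_true_iff _ _).1 h5.2] at h7
    exact Nat.le_of_mul_le_mul_left h7 (by positivity)
  · exact h4 ▸ (blt_true_iff _ _).1 h5.1

theorem extraspecial_equiv {X Y : Type*} [Group X] [Group Y] [Finite X] [Finite Y]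
    (h : Cfsg.IsExtraspecial 2 X) (e : X ≃* Y) : Cfsg.IsExtraspecial 2 Y := by
  have := Fact.mk Nat.prime_two
  obtain ⟨z, hz, hs⟩ := CfsgH2.IsExtraspecial.exists_sympl h
  refine CfsgH2.isExtraspecial_of_sympl (z := e z) ⟨?_, by simpa using hs.ne_one,
    by rw [← map_pow, hs.pow_eq, map_one], mem_top _, fun x _ y _ => ?_, fun x _ => ?_,
    fun x hx => ?_⟩ fun h1 => CfsgH2.IsExtraspecial.center_ne_top h ?_
  · refine mem_center_iff.2 fun g => ?_
    obtain ⟨g, rfl⟩ := e.surjective g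
    rw [← map_mul, ← map_mul, mem_center_iff.1 hs.central g]
  · obtain ⟨x, rfl⟩ := e.surjective x
    obtain ⟨y, rfl⟩ := e.surjective y
    obtain ⟨k, hk⟩ := hs.comm x (mem_top _) y (mem_top _)
    exact ⟨k, by simp only [← map_commutatorElement, ← hk, map_zpow]⟩
  · obtain ⟨x, rfl⟩ := e.surjective x
    obtain ⟨k, hk⟩ := hs.pow x (mem_top _)
    exact ⟨k, by simp only [← map_pow, ← hk, map_zpow]⟩
  · obtain ⟨x, rfl⟩ := e.surjective x
    obtain ⟨k, hk⟩ := hs.nondeg (x := x) ⟨mem_top _, fun y _ => e.injective (by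
      simpa using hx.2 (e y) (mem_top _))⟩
    exact ⟨k, by simp only [← hk, map_zpow]⟩
  · rw [← hz]
    refine eq_top_of_card_eq _ ?_
    rw [Nat.card_congr e.toEquiv, ← card_top (G := Y), ← h1, Nat.card_zpowers, Nat.card_zpowers,
      MulEquiv.orderOf_eq]

theorem simple_quot {A : Type*} [Group A] (N : Subgroup A) [N.Normal] (hne : N ≠ ⊤)
    (key : ∀ K : Subgroup A, K.Normal → K ≤ N ∨ K = ⊤) : IsSimpleGroup (A ⧸ N) := by
  have : Nontrivial (A ⧸ N) := QuotientGroup.nontrivial_iff.2 hne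
  refine ⟨fun K hK => ?_⟩
  rcases key (K.comap (QuotientGroup.mk' _)) inferInstance with h | h
  · left
    rw [eq_bot_iff]
    intro x hx
    obtain ⟨x, rfl⟩ := QuotientGroup.mk_surjective x
    exact (QuotientGroup.eq_one_iff x).2 (h hx)
  · right
    rw [eq_top_iff]
    intro x _
    obtain ⟨x, rfl⟩ := QuotientGroup.mk_surjective x
    exact (h ▸ mem_top x : x ∈ K.comap (QuotientGroup.mk' _))

/-- transport of a chain of subgroups into the centraliser of an element of `G` -/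
theorem pack_cent [Finite Γ] {G K Q N M : Subgroup Γ} {z : Γ} (hz : z ∈ G) (h1 : z ^ 2 = 1 ∧ z ≠ 1)
    (hK : G ⊓ centralizer {z} = K) (hQN : Q ≤ N) (hNM : N ≤ M) (hMK : M ≤ K) (nQ : NormBy K Q)
    (nN : NormBy K N) (eQ : Cfsg.IsExtraspecial 2 Q) {q n m : ℕ} (cQ : Nat.card Q = q)
    (cN : Nat.card N = n) (cM : Nat.card M = m * n) (hm : 1 < m) (cK : Nat.card K = 2 * (m * n))
    (hd : ∀ L, L ≤ M → NormBy M L → L ≤ N ∨ L = M) :
    ∃ z : G, orderOf z = 2 ∧ ∃ (Q N M : Subgroup (centralizer ({z} : Set G))), Q.Normal ∧ N.Normal ∧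
      Q ≤ N ∧ N ≤ M ∧ Nat.card Q = q ∧ Cfsg.IsExtraspecial 2 Q ∧ Nat.card N = n ∧ M.index = 2 ∧
      ∃ (_ : (N.subgroupOf M).Normal), IsSimpleGroup (M ⧸ N.subgroupOf M) ∧
        Nat.card (M ⧸ N.subgroupOf M) = m := by
  have := Fact.mk Nat.prime_two
  let z' : G := ⟨z, hz⟩
  let f : centralizer ({z'} : Set G) →* Γ := G.subtype.comp (Subgroup.subtype _)
  have hf : Function.Injective f := G.subtype_injective.comp (Subgroup.subtype_injective _)
  have hr : f.range = K := by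
    rw [← hK]
    ext x
    constructor
    · rintro ⟨y, rfl⟩
      exact ⟨y.1.2, mem_centralizer_singleton_iff.2
        (congrArg Subtype.val (mem_centralizer_singleton_iff.1 y.2))⟩
    · intro hx
      exact ⟨⟨⟨x, hx.1⟩, mem_centralizer_singleton_iff.2
        (Subtype.ext (mem_centralizer_singleton_iff.1 hx.2))⟩, rfl⟩
  have he : ∀ A : Subgroup Γ, A ≤ K → Nonempty (A.comap f ≃* A) := fun A hA =>
    ⟨(equivMapOfInjective _ f hf).trans (MulEquiv.subgroupCongr (map_comap_eq_self (hr ▸ hA)))⟩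
  have hn : ∀ A : Subgroup Γ, NormBy K A → (A.comap f).Normal := fun A hA =>
    ⟨fun x hx g => by
      show f _ ∈ A
      rw [map_mul, map_mul, map_inv]
      exact hA _ (hr ▸ ⟨g, rfl⟩) _ hx⟩
  obtain ⟨e1⟩ := he Q (hQN.trans (hNM.trans hMK))
  obtain ⟨e2⟩ := he N (hNM.trans hMK)
  obtain ⟨e3⟩ := he M hMK
  have hn0 : 0 < n := cN ▸ Nat.card_pos
  have c2 := (Nat.card_congr e2.toEquiv).trans cN
  have c3 := (Nat.card_congr e3.toEquiv).trans cM
  have hN := hn N nN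
  have c4 : Nat.card ((N.comap f).subgroupOf (M.comap f)) = n :=
    (Nat.card_congr (subgroupOfEquivOfLe (comap_mono hNM)).toEquiv).trans c2
  refine ⟨z', orderOf_eq_prime (Subtype.ext h1.1) fun h => h1.2 (congrArg Subtype.val h),
    Q.comap f, N.comap f, M.comap f, hn Q nQ, hN, comap_mono hQN, comap_mono hNM,
    (Nat.card_congr e1.toEquiv).trans cQ, extraspecial_equiv eQ e1.symm, c2, ?_, inferInstance,
    simple_quot _ (fun h => ?_) fun L hL => ?_, ?_⟩
  · have h2 := (M.comap f).index_mul_card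
    rw [c3, Nat.card_congr (MonoidHom.ofInjective hf).toEquiv, hr, cK] at h2
    exact Nat.eq_of_mul_eq_mul_right (by positivity) h2
  · rw [h, card_top, c3] at c4
    nlinarith
  · let φ := f.comp (M.comap f).subtype
    rcases hd (L.map φ) (by rintro _ ⟨x, -, rfl⟩; exact x.2) (by
      rintro g hg _ ⟨x, hx, rfl⟩
      obtain ⟨g, rfl⟩ : g ∈ f.range := hr ▸ hMK hg
      exact ⟨_, hL.conj_mem x hx ⟨g, hg⟩, by simp [φ]⟩) with h | h
    · exact Or.inl fun x hx => h ⟨x, hx, rfl⟩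
    · refine Or.inr (eq_top_iff.2 fun x _ => ?_)
      obtain ⟨y, hy, e⟩ : φ x ∈ L.map φ := h.symm ▸ x.2
      rwa [← Subtype.ext (hf e)]
  · have h2 := ((N.comap f).subgroupOf (M.comap f)).index_mul_card
    rw [c4, c3] at h2
    exact Nat.eq_of_mul_eq_mul_right hn0 h2

end

end CfsgH6
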