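/-
Unordered pairs, traces, fixed point counts, double covers and transport of centralisers.
-/
import Cfsg.Agent.H6.DCj

set_option autoImplicit false

namespace CfsgH6

open CfsgH5 Subgroup MulAction Pointwise

noncomputable section

variable {Γ : Type*} [Group Γ] {O : GOps} {C : GC O Γ} {R : ℕ → ℕ}

/-- a symmetric pairing -/
def symK (a b : ℕ) : ℕ := bif' (Nat.ble a b) (Nat.add (Nat.mul b b) a) (Nat.add (Nat.mul a a) b)

theorem symK_iff (a b c d : ℕ) : symK a b = symK c d ↔ (a = c ∧ b = d) ∨ (a = d ∧ b = c) := by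
  have key : ∀ a b c d : ℕ, a ≤ b → c ≤ d → b * b + a = d * d + c → a = c ∧ b = d := by
    intro a b c d h1 h2 h
    have : b = d := by
      rcases lt_trichotomy b d with h3 | h3 | h3
      · nlinarith
      · exact h3
      · nlinarith
    subst this
    omega
  simp only [symK, bif'_eq, ble_true_iff, Nat.add_eq, Nat.mul_eq]
  constructor
  · intro h
    split_ifs at h with h1 h2 h2
    · exact Or.inl (key _ _ _ _ h1 h2 h)
    · exact Or.inr (key _ _ _ _ h1 (by omega) h)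
    · exact Or.inr (key _ _ _ _ (by omega) h2 h).symm
    · exact Or.inl (key _ _ _ _ (by omega) (by omega) h).symm
  · rintro (⟨rfl, rfl⟩ | ⟨rfl, rfl⟩)
    · rfl
    · split_ifs with h1 h2 h2
      · rw [le_antisymm h1 h2]
      · rfl
      · rfl
      · omega

/-- action on pairs of codes -/
def appP (B : ℕ) (app : ℕ → ℕ → ℕ) (c v : ℕ) : ℕ :=
  force c fun c => force (app c (pr1 B v)) fun a => force (app c (pr2 B v)) fun b => pair B a b

/-- key of an unordered pair -/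
def keyP (B : ℕ) (key : ℕ → ℕ) (v : ℕ) : ℕ :=
  force (force (pr1 B v) key) fun a => force (force (pr2 B v) key) fun b => symK a b

section act

variable {α : Type*} [MulAction Γ α] {app : ℕ → ℕ → ℕ} {key : ℕ → ℕ}

/-- the action on unordered pairs -/
def Act.upair (A : Act C α app key) (B : ℕ) (hB : ∀ v x, A.Rep v x → v < 2 ^ B) :
    Act C (Set α) (appP B app) (keyP B key) where
  Rep v X := ∃ x y, A.Rep (pr1 B v) x ∧ A.Rep (pr2 B v) y ∧ X = {x, y}
  app_ok g v X := by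
    rintro ⟨x, y, hx, hy, rfl⟩
    have h1 := A.app_ok g _ _ hx
    refine ⟨g • x, g • y, ?_, ?_, Set.image_pair _ _ _⟩
    · simp only [appP, force_eq]; rwa [pr1_pair (hB _ _ h1)]
    · simp only [appP, force_eq]; rw [pr2_pair (hB _ _ h1)]; exact A.app_ok g _ _ hy
  key_iff := by
    rintro v w _ _ ⟨x, y, hx, hy, rfl⟩ ⟨x', y', hx', hy', rfl⟩
    simp only [keyP, force_eq]
    rw [symK_iff, A.key_iff _ _ _ _ hx hx', A.key_iff _ _ _ _ hy hy', A.key_iff _ _ _ _ hx hy',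
      A.key_iff _ _ _ _ hy hx', Set.pair_eq_pair_iff]

theorem Act.upair_rep {A : Act C α app key} {B : ℕ} (hB : ∀ v x, A.Rep v x → v < 2 ^ B) {a b c : ℕ}
    (ha : ∃ x, A.Rep a x) (hb : ∃ x, A.Rep b x) (e : Nat.beq c (pair B a b) = true) :
    ∃ X, (A.upair B hB).Rep c X := by
  obtain ⟨x, hx⟩ := ha
  obtain ⟨y, hy⟩ := hb
  rw [(beq_true_iff _ _).1 e]
  exact ⟨_, x, y, by rwa [pr1_pair (hB _ _ hx)], by rwa [pr2_pair (hB _ _ hx)], rfl⟩

theorem Act.ne_of {A : Act C α app key} {v w : ℕ} {x y : α} (hv : A.Rep v x) (hw : A.Rep w y)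
    (h : bnot (Nat.beq (key v) (key w)) = true) : x ≠ y := fun e => by
  simp only [bnot_eq, Bool.not_eq_true', ← Bool.not_eq_true, beq_true_iff] at h
  exact h ((A.key_iff _ _ _ _ hv hw).2 e)

/-- points moved by the element with code `c` -/
def movF (app : ℕ → ℕ → ℕ) (c v : ℕ) : Bool := bnot (Nat.beq (app c v) v)

theorem Act.count_fix [Finite Γ] {A : Act C α app fun x => x} {tab : ℕ → ℕ} {T : Subgroup Γ} {β : α}
    {L : List (ℕ × ℕ × ℕ × ℕ)} {n c : ℕ}
    (h : ∀ p ∈ L, A.Seen (tabP n (movF app c) tab) T (C.wd R p.2.1 • β) p.2.2.1 p.2.2.2)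
    (hc : cover n [0] L 0 = true) (hx : C.In ⊤ c) :
    {y | y ∈ orbit T β ∧ C.el c • y = y}.ncard + n ≤ (orbit T β).ncard := by
  have : ∀ k : Fin n, ∃ y, (y ∈ orbit T β ∧ ¬ C.el c • y = y) ∧
      ∃ v, A.Rep v y ∧ tabP n (movF app c) tab v >>> 16 = k := by
    intro k
    obtain ⟨p, hp, h1, h2, h3⟩ := cover_sound hc (Nat.zero_le _) k.2
    obtain ⟨τ, hτ, v, hv, e⟩ := h p hp k h2 h3
    rw [List.mem_singleton.1 h1, GC.wd_zero, one_smul] at hv
    refine ⟨_, ⟨⟨⟨τ, hτ⟩, rfl⟩, Act.ne_of (Act.app_el hx hv) hv ?_⟩, v, hv, e⟩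
    by_contra hf
    rw [tabP, bif'_eq, if_neg (show ¬ movF app c v = true from hf), Nat.shiftLeft_eq',
      Nat.shiftLeft_shiftRight] at e
    exact absurd k.2 (by omega)
  choose y hy using this
  have hi : Function.Injective y := fun i j hij => by
    obtain ⟨v, hv, e⟩ := (hy i).2
    obtain ⟨w, hw, e'⟩ := (hy j).2
    rw [show v = w from (A.key_iff _ _ _ _ hv hw).2 hij] at e
    exact Fin.ext (e.symm.trans e')
  have hfin : (orbit T β).Finite := Set.finite_range _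
  have h1 : n ≤ {y | y ∈ orbit T β ∧ ¬ C.el c • y = y}.ncard := by
    have := Set.ncard_le_ncard (s := Set.range y) (t := {y | y ∈ orbit T β ∧ ¬ C.el c • y = y})
      (by rintro _ ⟨k, rfl⟩; exact (hy k).1) (hfin.subset fun _ h => h.1)
    rwa [Set.ncard_range_of_injective hi, Nat.card_eq_fintype_card, Fintype.card_fin] at this
  have h2 : {y | y ∈ orbit T β ∧ C.el c • y = y}.ncard +
      {y | y ∈ orbit T β ∧ ¬ C.el c • y = y}.ncard = (orbit T β).ncard := by
    rw [← Set.ncard_union_eq (by rw [Set.disjoint_left]; exact fun x h1 h2 => h2.2 h1.2)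
      (hfin.subset fun _ h => h.1) (hfin.subset fun _ h => h.1)]
    congr 1; ext x; simp only [Set.mem_union, Set.mem_ofPred_eq]; tauto
  omega

theorem cent_fix [Finite Γ] {A K : Subgroup Γ} {β : α} {x : Γ} {n m k : ℕ}
    (h : A ⊓ stabilizer Γ β = K ∧ (orbit A β).ncard = n) (hx : x ∈ stabilizer Γ β)
    (hk : {y | y ∈ orbit A β ∧ x • y = y}.ncard + m ≤ (orbit A β).ncard)
    (e : Nat.ble n (Nat.add k m) = true) :
    Nat.card (A ⊓ centralizer {x} : Subgroup Γ) ≤ k * Nat.card (K ⊓ centralizer {x} : Subgroup Γ) := by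
  rw [card_eq_orb _ β, inf_right_comm, h.1]
  refine Nat.mul_le_mul_right _ (le_trans (Set.ncard_le_ncard ?_
    ((Set.finite_range _ : (orbit A β).Finite).subset fun _ h => h.1)) (count_le hk h.2.le e))
  rintro _ ⟨⟨g, hg⟩, rfl⟩
  refine ⟨⟨⟨g, hg.1⟩, rfl⟩, ?_⟩
  show x • g • β = g • β
  rw [← mul_smul, ← mem_centralizer_singleton_iff.1 hg.2, mul_smul, mem_stabilizer_iff.1 hx]

theorem cent_two [Finite Γ] {A K : Subgroup Γ} {β : α} {x j : Γ} {n m : ℕ}
    (h : A ⊓ stabilizer Γ β = K ∧ (orbit A β).ncard = n) (hx : x ∈ stabilizer Γ β)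
    (hk : {y | y ∈ orbit A β ∧ x • y = y}.ncard + m ≤ (orbit A β).ncard)
    (e : Nat.ble n (Nat.add 2 m) = true) (hK : ∀ g ∈ K, g * x = x * g) (hj : j ∈ A)
    (h1 : j • β ≠ β) (h2 : x ∈ stabilizer Γ (j • β)) (h3 : j * x ≠ x * j) :
    A ⊓ centralizer {x} ≤ K := by
  intro g hg
  have h4 : {j • β, β} = {y | y ∈ orbit A β ∧ x • y = y} := by
    refine Set.eq_of_subset_of_ncard_le ?_ (by rw [Set.ncard_pair h1]; exact count_le hk h.2.le e)
      ((Set.finite_range _ : (orbit A β).Finite).subset fun _ h => h.1)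
    rintro _ (rfl | rfl)
    · exact ⟨⟨⟨j, hj⟩, rfl⟩, h2⟩
    · exact ⟨mem_orbit_self _, hx⟩
  have h5 : g • β ∈ ({j • β, β} : Set α) := by
    rw [h4]
    refine ⟨⟨⟨g, hg.1⟩, rfl⟩, ?_⟩
    rw [← mul_smul, ← mem_centralizer_singleton_iff.1 hg.2, mul_smul, mem_stabilizer_iff.1 hx]
  rcases h5 with h5 | h5
  · have h6 : j⁻¹ * g ∈ K := h.1 ▸ ⟨A.mul_mem (A.inv_mem hj) hg.1,
      mem_stabilizer_iff.2 (by rw [mul_smul, h5, inv_smul_smul])⟩
    have h7 := (centralizer {x}).mul_mem hg.2 ((centralizer {x}).inv_mem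
      (mem_centralizer_singleton_iff.2 (hK _ h6)))
    exact absurd (mem_centralizer_singleton_iff.1 (by simpa using h7)) h3
  · exact h.1 ▸ ⟨hg.1, h5⟩

end act

theorem mem_of_gen1 {S : Subgroup Γ} {x M : ℕ} (h : C.gen R M ≤ S) (e : tb M x = true) :
    C.el (R x) ∈ S := h (subset_closure ⟨x, by simpa using e, rfl⟩)

/-! ### Traces -/

/-- sum of the diagonal entries -/
def trC (W n c : ℕ) : ℕ → ℕ :=
  Nat.rec (motive := fun _ => ℕ) 0 (fun i acc => Nat.add acc
    (Nat.land (Nat.shiftRight c (Nat.mul W (Nat.add (Nat.mul n i) i))) (Nat.sub (Nat.pow 2 W) 1)))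

theorem trC_mcode {n p W : ℕ} [NeZero p] (hp : p ≤ 2 ^ W) (M : Matrix (Fin n) (Fin n) (ZMod p)) :
    (trC W n (mcode W n M) n : ZMod p) = M.trace := by
  have : ∀ k, k ≤ n → trC W n (mcode W n M) k = ∑ i ∈ Finset.range k, ent M i i := by
    intro k hk
    induction k with
    | zero => rfl
    | succ k ih =>
      rw [Finset.sum_range_succ, ← ih (by omega), ← dgt_mcode hp le_rfl M (show k < n by omega) k]
      rfl
  rw [this n le_rfl, ← Fin.sum_univ_eq_sum_range (fun i => ent M i i)]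
  simp [ent_fin, Matrix.trace]

/-- the trace is not `t` or the order does not divide `k` -/
def fConj (P : PP) (t k c : ℕ) : Bool :=
  bor (bnot (Nat.beq (Nat.mod (trC P.W P.n c P.n) P.p) t)) (bnot (Nat.beq (powC P.ops c k) P.ops.one))

section via

variable {O' : GOps} {Γ' : Type*} [Group Γ'] {C' : GC O' Γ'} {f : Γ →* Γ'} {pr : ℕ → ℕ}

/-- the identity as a point -/
def viaOne (f : Γ →* Γ') : Via f Γ' := (1 : Γ')

theorem Act.via_self_rep (hf : ∀ g, C'.code (f g) = pr (C.code g)) :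
    (Act.via hf (Act.self C')).Rep O'.one (viaOne f) := Act.self_rep C'

end via

theorem fConj_sound {P : PP} [Fact (1 < P.p)] (h : P.ok = true)
    {f : Γ →* (Matrix (Fin P.n) (Fin P.n) (ZMod P.p))ˣ} {pr : ℕ → ℕ}
    (hf : ∀ g, (PP.mc h).units.code (f g) = pr (C.code g)) {z t k : ℕ} (hz : C.In ⊤ z)
    (hk : band (Nat.ble 1 k) (bnot (fConj P t k (pr z))) = true) {T : Subgroup Γ} (τ : Γ) (_ : τ ∈ T)
    (v : ℕ) (hv : (Act.via hf (Act.self (PP.mc h).units)).Rep v (τ • viaOne f))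
    (h1 : fConj P t k v = true) : ¬ IsConj (C.el z) τ := by
  have : NeZero P.p := ⟨by have := Fact.out (p := 1 < P.p); omega⟩
  have hv : v = (PP.mc h).units.code (f τ * 1) := hv
  rw [mul_one] at hv
  subst hv
  intro hc
  rw [band_eq, Bool.and_eq_true, ble_true_iff, ← hz.code_el, ← hf] at hk
  have key : ∀ g : (Matrix (Fin P.n) (Fin P.n) (ZMod P.p))ˣ, fConj P t k ((PP.mc h).units.code g) =
      (!(decide (g.val.trace.val = t)) || !(decide (g ^ k = 1))) := by
    intro g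
    have e1 : Nat.mod (trC P.W P.n ((PP.mc h).units.code g) P.n) P.p = g.val.trace.val := by
      rw [← trC_mcode (PP.ok_spec h).2.2, ZMod.val_natCast]; rfl
    rw [fConj, e1, GC.code_pow _ (by omega), ← (PP.mc h).units.code_one, bor_eq, bnot_eq, bnot_eq]
    congr 2
    · rw [Bool.eq_iff_iff, beq_true_iff, decide_eq_true_iff]
    · rw [Bool.eq_iff_iff, beq_true_iff, decide_eq_true_iff, (PP.mc h).units.inj.eq_iff]
  obtain ⟨c, rfl⟩ := isConj_iff.1 hc
  rw [key] at h1 hk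
  simp only [map_mul, map_inv, Units.val_mul, conj_pow, Matrix.trace_units_conj,
    conj_eq_one_iff] at h1
  simp [h1] at hk

section map

variable {Γ' : Type*} [Group Γ'] [Finite Γ] (f : Γ →* Γ') {D T : Subgroup Γ}

theorem injOn_of_card (h : Nat.card D ≤ Nat.card (D.map f)) : ∀ a ∈ D, ∀ b ∈ D, f a = f b → a = b := by
  have := ((Nat.bijective_iff_surjective_and_card _).2
    ⟨f.subgroupMap_surjective D, le_antisymm h (card_map_le f D)⟩).1
  exact fun a ha b hb e => congrArg Subtype.val (this (a₁ := ⟨a, ha⟩) (a₂ := ⟨b, hb⟩) (Subtype.ext e))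

theorem card_le_map_sub (h : Nat.card D ≤ Nat.card (D.map f)) (hT : T ≤ D) :
    Nat.card T ≤ Nat.card (T.map f) := by
  have : Finite (T.map f) := Finite.of_surjective _ (f.subgroupMap_surjective T)
  exact Nat.card_le_card_of_injective (f.subgroupMap T) fun a b e =>
    Subtype.ext (injOn_of_card f h _ (hT a.2) _ (hT b.2) (congrArg Subtype.val e))

theorem cent_map (h : Nat.card D ≤ Nat.card (D.map f)) {z : Γ} (hz : z ∈ D) :
    Nat.card (D.map f ⊓ centralizer {f z} : Subgroup Γ') ≤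
      Nat.card (D ⊓ centralizer {z} : Subgroup Γ) := by
  have : Finite ((D ⊓ centralizer {z}).map f) := Finite.of_surjective _ (f.subgroupMap_surjective _)
  refine (card_le_of_le ?_).trans (card_map_le f _)
  rintro _ ⟨⟨a, ha, rfl⟩, h1⟩
  exact ⟨a, ⟨ha, mem_centralizer_singleton_iff.2 (injOn_of_card f h _ (D.mul_mem ha hz) _
    (D.mul_mem hz ha) (by simpa using mem_centralizer_singleton_iff.1 h1))⟩, rfl⟩

theorem cent_prod [Finite Γ'] {H T' : Subgroup Γ'} (eH : H = D.map f) (eT : T' = T.map f)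
    (h : Nat.card D ≤ Nat.card H) (hT : T ≤ D) {g z' : Γ'} {z : Γ} (hz : z ∈ D) (ez : z' = f z)
    (hc : ∀ τ ∈ T', g * τ * g⁻¹ ∈ H) (hex : ∀ x ∈ H, g * x * g⁻¹ ∈ H → x ∈ T') :
    (DC1 H g ∩ centralizer {z'}).ncard * Nat.card T ≤
      {τ | τ ∈ T ∧ IsConj z τ}.ncard * (Nat.card (H ⊓ centralizer {z'} : Subgroup Γ') *
        Nat.card (H ⊓ centralizer {z'} : Subgroup Γ')) := by
  subst eH eT ez
  refine (Nat.mul_le_mul_left _ (card_le_map_sub f h hT)).trans
    ((cent_DC1 (X := f '' {τ | τ ∈ T ∧ IsConj z τ}) (map_mono hT) hc ?_).trans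
      (Nat.mul_le_mul_right _ Set.ncard_image_le))
  rintro a ha _ ⟨b, hb, rfl⟩ e
  have h1 : f z ∈ D.map f := ⟨z, hz, rfl⟩
  have h2 : b * z * b⁻¹ ∈ D := D.mul_mem (D.mul_mem hb hz) (D.inv_mem hb)
  obtain ⟨τ, hτ, e'⟩ := hex (f b * f z * (f b)⁻¹) ⟨_, h2, by simp⟩
    (e ▸ (D.map f).mul_mem ((D.map f).mul_mem ((D.map f).inv_mem ha) h1) ha)
  refine ⟨τ, ⟨hτ, isConj_iff.2 ⟨b, injOn_of_card f h _ h2 _ (hT hτ) (by simp [e'])⟩⟩, e'⟩

omit [Finite Γ] in
theorem card_le_map_of_simple (hs : IsSimpleGroup D) (hf : ¬ D ≤ f.ker) :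
    Nat.card D ≤ Nat.card (D.map f) := by
  have h3 := card_mul_index (f.ker.subgroupOf D)
  rcases (inferInstance : (f.ker.subgroupOf D).Normal).eq_bot_or_eq_top with h | h
  · rw [← relIndex, relIndex_ker, h, card_bot, one_mul] at h3
    exact h3.ge
  · exact absurd (subgroupOf_eq_top.1 h) hf

theorem simple_map (hs : IsSimpleGroup D) (h : Nat.card D ≤ Nat.card (D.map f)) :
    IsSimpleGroup (D.map f) :=
  (MulEquiv.ofBijective (f.subgroupMap D) ((Nat.bijective_iff_surjective_and_card _).2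
    ⟨f.subgroupMap_surjective D, le_antisymm h (card_map_le f D)⟩)).symm.isSimpleGroup

end map

/-- if the count is exact, the subgroups `T` are the full intersections -/
theorem GC.exact_el [Finite Γ] {G H T : Subgroup Γ} {MI : ℕ} (L : List (ℕ × ℕ))
    (hG : ∀ x ∈ G, x ∈ DCs H (C.els R MI))
    (hL : ∀ p ∈ L, (DC1 H (C.el (R p.1))).ncard ≤ Nat.card H * p.2) {n : ℕ}
    (h : band (allL L fun p => Nat.blt p.1 1024) (band (subM MI (insL (L.map Prod.fst) 0))
      (Nat.beq n (1 + (L.map Prod.snd).sum))) = true) (hc : n * Nat.card H ≤ Nat.card G)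
    {p : ℕ × ℕ} (hp : p ∈ L) (hTH : T ≤ H)
    (hT : ∀ τ ∈ T, C.el (R p.1) * τ * (C.el (R p.1))⁻¹ ∈ H) (hm : Nat.card H ≤ p.2 * Nat.card T) :
    ∀ x ∈ H, C.el (R p.1) * x * (C.el (R p.1))⁻¹ ∈ H → x ∈ T := by
  simp only [band_eq, Bool.and_eq_true, beq_true_iff, allL_iff, blt_true_iff] at h
  refine exact_DCs (G := G) (H := H) (T := T) (L.map fun p => (C.el (R p.1), p.2)) (fun x hx => ?_) (by
    intro p hp
    obtain ⟨q, hq, rfl⟩ := List.mem_map.1 hp
    exact hL q hq) (by rw [List.map_map, mul_comm]; rw [h.2.2] at hc; exact hc)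
    (List.mem_map.2 ⟨p, hp, rfl⟩) hTH hT hm
  rcases hG x hx with h' | ⟨_, ⟨i, hi, rfl⟩, h'⟩
  · exact Or.inl h'
  · obtain ⟨e, he, rfl⟩ := ((testBit_insL _ _ _).1 (subM_sound h.2.1 hi)).resolve_left (by simp)
    obtain ⟨p, hp, rfl⟩ := List.mem_map.1 he
    rw [hd_eq, Nat.mod_eq_of_lt (h.1 p hp)] at h'
    exact Or.inr ⟨_, List.mem_map.2 ⟨_, List.mem_map.2 ⟨p, hp, rfl⟩, rfl⟩, h'⟩

theorem exact_card [Finite Γ] {G H T : Subgroup Γ} (L : List (Γ × ℕ))
    (hG : ∀ x ∈ G, x ∈ DCs H {g | g ∈ L.map Prod.fst})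
    (hL : ∀ p ∈ L, (DC1 H p.1).ncard ≤ Nat.card H * p.2)
    (hc : Nat.card H * (1 + (L.map Prod.snd).sum) ≤ Nat.card G) {p : Γ × ℕ} (hp : p ∈ L)
    (hTH : T ≤ H) (hT : ∀ τ ∈ T, p.1 * τ * p.1⁻¹ ∈ H) : p.2 * Nat.card T ≤ Nat.card H := by
  have h1 : (DC1 H p.1).ncard ≤ Nat.card H * T.relIndex H := ncard_DC1_le hT
  have h2 : Nat.card T * T.relIndex H = Nat.card H := by
    rw [← Nat.card_congr (subgroupOfEquivOfLe hTH).toEquiv]
    exact card_mul_index _
  have hH : 0 < Nat.card H := Nat.card_pos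
  rw [← h2, mul_comm]
  refine Nat.mul_le_mul_left _ (not_lt.1 fun h3 => ?_)
  have h4 : Nat.card G ≤ (DCs H {g | g ∈ L.map Prod.fst}).ncard :=
    Set.ncard_le_ncard (s := (G : Set Γ)) hG
  have h5 := ncard_DCs_le H (L.map Prod.fst)
  have h6 : ((L.map Prod.fst).map fun g => (DC1 H g).ncard).sum <
      (L.map fun p => Nat.card H * p.2).sum := by
    rw [List.map_map]
    exact List.sum_lt_sum _ _ hL ⟨p, hp, lt_of_le_of_lt h1 (Nat.mul_lt_mul_of_pos_left h3 hH)⟩
  rw [List.sum_map_mul_left] at h6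
  rw [mul_add, mul_one] at hc
  omega

theorem GC.exact_card [Finite Γ] {G H T : Subgroup Γ} {MI : ℕ} (L : List (ℕ × ℕ))
    (hG : ∀ x ∈ G, x ∈ DCs H (C.els R MI))
    (hL : ∀ p ∈ L, (DC1 H (C.el (R p.1))).ncard ≤ Nat.card H * p.2) {n : ℕ}
    (h : band (allL L fun p => Nat.blt p.1 1024) (band (subM MI (insL (L.map Prod.fst) 0))
      (Nat.beq n (1 + (L.map Prod.snd).sum))) = true) (hc : n * Nat.card H ≤ Nat.card G)
    {p : ℕ × ℕ} (hp : p ∈ L) (hTH : T ≤ H)
    (hT : ∀ τ ∈ T, C.el (R p.1) * τ * (C.el (R p.1))⁻¹ ∈ H) : p.2 * Nat.card T ≤ Nat.card H := by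
  simp only [band_eq, Bool.and_eq_true, beq_true_iff, allL_iff, blt_true_iff] at h
  refine CfsgH6.exact_card (G := G) (H := H) (T := T) (L.map fun p => (C.el (R p.1), p.2))
    (fun x hx => ?_) (by
    intro p hp
    obtain ⟨q, hq, rfl⟩ := List.mem_map.1 hp
    exact hL q hq) (by rw [List.map_map, mul_comm]; rw [h.2.2] at hc; exact hc)
    (List.mem_map.2 ⟨p, hp, rfl⟩) hTH hT
  rcases hG x hx with h' | ⟨_, ⟨i, hi, rfl⟩, h'⟩
  · exact Or.inl h'
  · obtain ⟨e, he, rfl⟩ := ((testBit_insL _ _ _).1 (subM_sound h.2.1 hi)).resolve_left (by simp)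
    obtain ⟨p, hp, rfl⟩ := List.mem_map.1 he
    rw [hd_eq, Nat.mod_eq_of_lt (h.1 p hp)] at h'
    exact Or.inr ⟨_, List.mem_map.2 ⟨_, List.mem_map.2 ⟨p, hp, rfl⟩, rfl⟩, h'⟩

theorem map_facts {Γ' : Type*} [Group Γ'] [Finite Γ] (f : Γ →* Γ') {D T : Subgroup Γ}
    {H T' : Subgroup Γ'} (eH : H = D.map f) (eT : T' = T.map f) (h : Nat.card D ≤ Nat.card H)
    (hT : T ≤ D) : T' ≤ H ∧ Nat.card T ≤ Nat.card T' := by
  subst eH eT
  exact ⟨map_mono hT, card_le_map_sub f h hT⟩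

theorem vec_lt {P : PP} [Fact (1 < P.p)] (h : P.ok = true) (hk : P.n ≤ P.k)
    (hb : P.n * ((P.p - 1) * (P.p - 1)) < 2 ^ P.W) (v : ℕ) (x : Fin P.n → ZMod P.p)
    (hv : (PP.actK h hk hb).Rep v x) : v < 2 ^ (P.W * P.n) := by
  have : NeZero P.p := ⟨by have := Fact.out (p := 1 < P.p); omega⟩
  have hv : v = vcode P.W x := hv
  rw [hv]
  exact evd_lt fun k _ => lt_of_lt_of_le (entV_lt x k) (PP.ok_spec h).2.2

theorem mem_ker_of {O' : GOps} {Γ' : Type*} [Group Γ'] {C' : GC O' Γ'} {f : Γ →* Γ'} {pr : ℕ → ℕ}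
    (hf : ∀ g, C'.code (f g) = pr (C.code g)) {z : ℕ} (hz : C.In ⊤ z)
    (h : Nat.beq (pr z) O'.one = true) : C.el z ∈ f.ker :=
  C'.inj (by rw [hf, hz.code_el, C'.code_one]; exact (beq_true_iff _ _).1 h)

theorem not_mem_ker_of {O' : GOps} {Γ' : Type*} [Group Γ'] {C' : GC O' Γ'} {f : Γ →* Γ'} {pr : ℕ → ℕ}
    (hf : ∀ g, C'.code (f g) = pr (C.code g)) {z : ℕ} (hz : C.In ⊤ z)
    (h : bnot (Nat.beq (pr z) O'.one) = true) : C.el z ∉ f.ker := fun h1 => by
  simp only [bnot_eq, Bool.not_eq_true', ← Bool.not_eq_true, beq_true_iff] at h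
  exact h (by rw [← hz.code_el, ← hf, MonoidHom.mem_ker.1 h1, C'.code_one])

theorem GC.In.sq_eq {a b : ℕ} (ha : C.In ⊤ a) (hb : C.In ⊤ b) (h : Nat.beq (O.mul a a) b = true) :
    C.el a * C.el a = C.el b := by
  rwa [beq_true_iff, ← ha.code_el, ← hb.code_el, ← C.code_mul, C.inj.eq_iff] at h

theorem not_normBy {α : Type*} [MulAction Γ α] {G H : Subgroup Γ} {a : α} (hf : H ≤ stabilizer Γ a)
    {g h : Γ} (hg : g ∈ G) (hh : h ∈ H) (hn : h • g • a ≠ g • a) : ¬ NormBy G H :=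
  fun hN => hn (hN.fix hf hg hh)

theorem not_normBy' {G H : Subgroup Γ} {z g : Γ} (hz : z ∈ H) (hg : g ∈ G)
    (h : g * z * g⁻¹ ∉ H) : ¬ NormBy G H := fun hN => h (hN g hg z hz)

/-- a subgroup of a product with a central kernel of order two over a simple group -/
theorem double_cover {A B K : Type*} [Group A] [Group B] [Group K] [Finite A] [Finite B]
    {D : Subgroup (A × B)} (hs : IsSimpleGroup K) (h2 : 2 < Nat.card K) (hk : Even (Nat.card K))
    (e : D.map (MonoidHom.snd A B) ≃* K) {x z : A × B} (hx : x ∈ D) (hz : x * x = z)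
    (z1 : z ^ 2 = 1) (z2 : z ∉ (MonoidHom.fst A B).ker) (z3 : z ∈ (MonoidHom.snd A B).ker)
    (hc : ∀ g ∈ D, g * z = z * g) (hD : Nat.card D ≤ 2 * Nat.card K) :
    2 * Nat.card K ≤ Nat.card (D.map (MonoidHom.fst A B)) ∧ ∀ (H' : Type) [Group H'],
      (H' ≃* D.map (MonoidHom.fst A B)) → Cfsg.IsNonsplitDoubleCover H' K := by
  have := Fact.mk Nat.prime_two
  have hzD : z ∈ D := hz ▸ D.mul_mem hx hx
  have hz1 : z ≠ 1 := fun h => z2 (h ▸ one_mem _)
  have cZ : Nat.card (zpowers z) = 2 := by rw [Nat.card_zpowers, orderOf_eq_prime z1 hz1]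
  let q : D →* K := e.toMonoidHom.comp ((MonoidHom.snd A B).subgroupMap D)
  have hq : Function.Surjective q := e.surjective.comp ((MonoidHom.snd A B).subgroupMap_surjective D)
  have cq : Nat.card D = Nat.card K * Nat.card q.ker := by
    rw [card_eq_card_quotient_mul_card_subgroup q.ker,
      Nat.card_congr (QuotientGroup.quotientKerEquivOfSurjective q hq).toEquiv]
  have hK : 0 < Nat.card K := by omega
  have cZ' : Nat.card ((zpowers z).subgroupOf D) = 2 :=
    (Nat.card_congr (subgroupOfEquivOfLe (zpowers_le.2 hzD)).toEquiv).trans cZ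
  have kq : (zpowers z).subgroupOf D = q.ker := by
    refine eq_of_le_of_card_ge (fun y hy => ?_) (by rw [cZ']; nlinarith)
    have : (y : A × B) ∈ (MonoidHom.snd A B).ker := zpowers_le.2 z3 hy
    exact (e.map_eq_one_iff).2 (Subtype.ext this)
  have cD : Nat.card D = Nat.card K * 2 := by rw [cq, ← kq, cZ']
  have hd : ∀ N, N ≤ D → NormBy D N → N ≤ zpowers z ∨ N = D := by
    intro N hN hn
    have hN' : (N.subgroupOf D).Normal := ⟨fun a ha g => hn g g.2 a ha⟩
    rcases (hN'.map q hq).eq_bot_or_eq_top with h | h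
    · left
      intro y hy
      have : (⟨y, hN hy⟩ : D) ∈ q.ker := (Subgroup.map_eq_bot_iff _).1 h hy
      rw [← kq] at this
      exact this
    · right
      have h1 : Nat.card K ≤ Nat.card (N.subgroupOf D) := by
        rw [← card_top (G := K), ← h]; exact card_map_le q _
      have h3 := (N.subgroupOf D).index_mul_card
      have h4 : (N.subgroupOf D).index = 1 ∨ (N.subgroupOf D).index = 2 := by
        have : (N.subgroupOf D).index ≠ 0 := index_ne_zero_of_finite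
        have : (N.subgroupOf D).index ≤ 2 := by nlinarith
        omega
      rcases h4 with h4 | h4
      · exact le_antisymm hN (subgroupOf_eq_top.1 (index_eq_one.1 h4))
      · have h5 : z ∈ N := hz ▸ mul_self_mem_of_index_two h4 ⟨x, hx⟩
        have h6 : q.ker ≤ N.subgroupOf D := kq ▸ fun y hy => zpowers_le.2 h5 hy
        refine le_antisymm hN (subgroupOf_eq_top.1 ?_)
        rw [← comap_map_eq_self h6, h, comap_top]
  have hi := card_le_map_of_dich (MonoidHom.fst A B) hd (cZ ▸ Nat.prime_two) (zpowers_le.2 hzD)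
    fun h => z2 (h (mem_zpowers z))
  have hnc : ∃ a ∈ D, ∃ b ∈ D, a * b ≠ b * a := by
    by_contra hcon
    push Not at hcon
    let _ : CommGroup K := { (inferInstance : Group K) with
      mul_comm := fun a b => by
        obtain ⟨a, rfl⟩ := hq a
        obtain ⟨b, rfl⟩ := hq b
        rw [← map_mul, ← map_mul]
        exact congrArg q (Subtype.ext (hcon _ a.2 _ b.2)) }
    have hp := IsSimpleGroup.prime_card (α := K)
    have := hp.even_iff.1 hk
    omega
  have hcen := (center_of_dichotomy (Z := zpowers z) (fun y hy g hg => by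
    obtain ⟨k, rfl⟩ := hy
    exact (Commute.zpow_right (hc g hg) k).eq) hnc hd).1
  refine ⟨by omega, fun H' _ e' => nonsplit_of (H := D) (e'.trans (MulEquiv.ofBijective
    ((MonoidHom.fst A B).subgroupMap D) ((Nat.bijective_iff_surjective_and_card _).2
      ⟨(MonoidHom.fst A B).subgroupMap_surjective D, le_antisymm hi (card_map_le _ D)⟩)).symm)
    (hcen ▸ cZ') ⟨(QuotientGroup.quotientMulEquivOfEq (hcen.trans kq)).trans
      (QuotientGroup.quotientKerEquivOfSurjective q hq)⟩ (index_ne_two hd (by omega))⟩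

theorem cent_equiv {G K : Subgroup Γ} {z : Γ} (hz : z ∈ G) (hK : G ⊓ centralizer {z} = K)
    {P : Type*} [Group P] (E : G ≃* P) :
    Nonempty (centralizer ({E ⟨z, hz⟩} : Set P) ≃* K) := by
  let f : centralizer ({E ⟨z, hz⟩} : Set P) →* Γ :=
    (G.subtype.comp E.symm.toMonoidHom).comp (Subgroup.subtype _)
  have hf : Function.Injective f :=
    (G.subtype_injective.comp E.symm.injective).comp (Subgroup.subtype_injective _)
  have hr : f.range = K := by
    rw [← hK]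
    ext x
    constructor
    · rintro ⟨y, rfl⟩
      refine ⟨(E.symm y.1).2, mem_centralizer_singleton_iff.2 ?_⟩
      have := congrArg (fun u => (E.symm u : Γ)) (mem_centralizer_singleton_iff.1 y.2)
      simpa [f] using this
    · intro hx
      refine ⟨⟨E ⟨x, hx.1⟩, mem_centralizer_singleton_iff.2 ?_⟩, by simp [f]⟩
      rw [← map_mul, ← map_mul]
      exact congrArg E (Subtype.ext (mem_centralizer_singleton_iff.1 hx.2))
  exact ⟨(MonoidHom.ofInjective hf).trans (MulEquiv.subgroupCongr hr)⟩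

end

end CfsgH6
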