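/-
Points fixed by two elements, and conjugates commuting with two elements.
-/
import Cfsg.Agent.H6.DCk

set_option autoImplicit false

namespace CfsgH6

open CfsgH5 Subgroup MulAction Pointwise

noncomputable section

variable {Γ : Type*} [Group Γ] {O : GOps} {C : GC O Γ} {R : ℕ → ℕ}

section act

variable {α : Type*} [MulAction Γ α] {app : ℕ → ℕ → ℕ}

/-- points moved by one of two elements -/
def mov2 (app : ℕ → ℕ → ℕ) (c d v : ℕ) : Bool := bor (movF app c v) (movF app d v)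

theorem Act.count_fix2 [Finite Γ] {A : Act C α app fun x => x} {tab : ℕ → ℕ} {T : Subgroup Γ} {β : α}
    {L : List (ℕ × ℕ × ℕ × ℕ)} {n c d : ℕ}
    (h : ∀ p ∈ L, A.Seen (tabP n (mov2 app c d) tab) T (C.wd R p.2.1 • β) p.2.2.1 p.2.2.2)
    (hc : cover n [0] L 0 = true) (hx : C.In ⊤ c) (hz : C.In ⊤ d) :
    {y | y ∈ orbit T β ∧ (C.el c • y = y ∧ C.el d • y = y)}.ncard + n ≤ (orbit T β).ncard := by
  have : ∀ k : Fin n, ∃ y, (y ∈ orbit T β ∧ ¬ (C.el c • y = y ∧ C.el d • y = y)) ∧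
      ∃ v, A.Rep v y ∧ tabP n (mov2 app c d) tab v >>> 16 = k := by
    intro k
    obtain ⟨p, hp, h1, h2, h3⟩ := cover_sound hc (Nat.zero_le _) k.2
    obtain ⟨τ, hτ, v, hv, e⟩ := h p hp k h2 h3
    rw [List.mem_singleton.1 h1, GC.wd_zero, one_smul] at hv
    refine ⟨_, ⟨⟨⟨τ, hτ⟩, rfl⟩, ?_⟩, v, hv, e⟩
    have hf : mov2 app c d v = true := by
      by_contra hf
      rw [tabP, bif'_eq, if_neg hf, Nat.shiftLeft_eq', Nat.shiftLeft_shiftRight] at e
      exact absurd k.2 (by omega)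
    rw [mov2, bor_eq, Bool.or_eq_true] at hf
    rintro ⟨e1, e2⟩
    rcases hf with hf | hf
    · exact Act.ne_of (Act.app_el hx hv) hv hf e1
    · exact Act.ne_of (Act.app_el hz hv) hv hf e2
  choose y hy using this
  have hi : Function.Injective y := fun i j hij => by
    obtain ⟨v, hv, e⟩ := (hy i).2
    obtain ⟨w, hw, e'⟩ := (hy j).2
    rw [show v = w from (A.key_iff _ _ _ _ hv hw).2 hij] at e
    exact Fin.ext (e.symm.trans e')
  have hfin : (orbit T β).Finite := Set.finite_range _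
  have h1 : n ≤ {y | y ∈ orbit T β ∧ ¬ (C.el c • y = y ∧ C.el d • y = y)}.ncard := by
    have := Set.ncard_le_ncard (s := Set.range y)
      (t := {y | y ∈ orbit T β ∧ ¬ (C.el c • y = y ∧ C.el d • y = y)})
      (by rintro _ ⟨k, rfl⟩; exact (hy k).1) (hfin.subset fun _ h => h.1)
    rwa [Set.ncard_range_of_injective hi, Nat.card_eq_fintype_card, Fintype.card_fin] at this
  have h2 : {y | y ∈ orbit T β ∧ (C.el c • y = y ∧ C.el d • y = y)}.ncard +
      {y | y ∈ orbit T β ∧ ¬ (C.el c • y = y ∧ C.el d • y = y)}.ncard = (orbit T β).ncard := by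
    rw [← Set.ncard_union_eq (by rw [Set.disjoint_left]; exact fun x h1 h2 => h2.2 h1.2)
      (hfin.subset fun _ h => h.1) (hfin.subset fun _ h => h.1)]
    congr 1; ext x; simp only [Set.mem_union, Set.mem_ofPred_eq]; tauto
  omega

/-- the images of `b` under the words of `Q` are fixed by `c` and `d` -/
def fixW (app : ℕ → ℕ → ℕ) (R : ℕ → ℕ) (M b c d : ℕ) (Q : List ℕ) : Bool :=
  allL Q fun w => band (subW M w) (force (appW app R w b) fun v =>
    band (Nat.beq (app c v) v) (Nat.beq (app d v) v))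

/-- no repetitions -/
def nodupB (L : List ℕ) : Bool := decide L.Nodup

theorem nine_of [Finite Γ] {A : Act C α app fun x => x} {K K0 : Subgroup Γ} {β : α}
    {b M c d N n : ℕ} {Q : List ℕ} {t : Γ} (hM : C.Mem R K M) (hb : A.Rep b β)
    (hst : K ⊓ stabilizer Γ β = K0 ∧ (orbit K β).ncard = N) (hC : K ⊓ centralizer {t} = K0)
    (hc : C.In K c) (hd : C.In K d)
    (hcnt : {y | y ∈ orbit K β ∧ (C.el c • y = y ∧ C.el d • y = y)}.ncard + n ≤ (orbit K β).ncard)
    (hQ : fixW app R M b c d Q = true) (hN : nodupB (Q.map fun w => appW app R w b) = true)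
    (e : Nat.ble N (Nat.add Q.length n) = true) :
    ∀ k ∈ K, Commute (k * t * k⁻¹) (C.el c) → Commute (k * t * k⁻¹) (C.el d) →
      ∃ w ∈ Q, k * t * k⁻¹ = C.wd R w * t * (C.wd R w)⁻¹ := by
  classical
  simp only [fixW, allL_iff, band_eq, Bool.and_eq_true, force_eq, beq_true_iff] at hQ
  rw [nodupB, decide_eq_true_iff] at hN
  have hrep : ∀ w ∈ Q, A.Rep (appW app R w b) (C.wd R w • β) := fun w hw =>
    Act.appW_ok hM (hQ w hw).1 hb
  have hN2 : (Q.map fun w => C.wd R w • β).Nodup := by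
    refine List.Nodup.map_on (fun u hu w hw e => ?_) (List.Nodup.of_map _ hN)
    exact List.inj_on_of_nodup_map hN hu hw ((A.key_iff _ _ _ _ (hrep u hu) (hrep w hw)).2 e)
  have hfin : (orbit K β).Finite := Set.finite_range _
  have hsub : ((Q.map fun w => C.wd R w • β).toFinset : Set α) ⊆
      {y | y ∈ orbit K β ∧ (C.el c • y = y ∧ C.el d • y = y)} := by
    intro y hy
    simp only [List.coe_toFinset, List.mem_map, Set.mem_setOf_eq] at hy
    obtain ⟨w, hw, rfl⟩ := hy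
    refine ⟨⟨⟨_, hM.wd_mem (hQ w hw).1⟩, rfl⟩, ?_, ?_⟩
    · exact (A.key_iff _ _ _ _ (Act.app_el hc (hrep w hw)) (hrep w hw)).1 (hQ w hw).2.1
    · exact (A.key_iff _ _ _ _ (Act.app_el hd (hrep w hw)) (hrep w hw)).1 (hQ w hw).2.2
  have heq := Set.eq_of_subset_of_ncard_le hsub (by
    rw [Set.ncard_coe_finset, List.toFinset_card_of_nodup hN2, List.length_map]
    exact count_le hcnt hst.2.le e) (hfin.subset fun _ h => h.1)
  intro k hk h1 h2
  have key : ∀ g ∈ K, Commute (k * t * k⁻¹) g → g • k • β = k • β := by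
    intro g hg h
    have h3 : k⁻¹ * g * k ∈ K0 := by
      rw [← hC]
      refine ⟨K.mul_mem (K.mul_mem (K.inv_mem hk) hg) hk, mem_centralizer_singleton_iff.2 ?_⟩
      have := h.eq
      calc k⁻¹ * g * k * t = k⁻¹ * (g * (k * t * k⁻¹)) * k := by group
        _ = k⁻¹ * (k * t * k⁻¹ * g) * k := by rw [this]
        _ = t * (k⁻¹ * g * k) := by group
    rw [← hst.1] at h3
    have h4 := mem_stabilizer_iff.1 h3.2
    rw [mul_smul, mul_smul, inv_smul_eq_iff] at h4
    exact h4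
  have hk2 : k • β ∈ ((Q.map fun w => C.wd R w • β).toFinset : Set α) := by
    rw [heq]
    exact ⟨⟨⟨k, hk⟩, rfl⟩, key _ hc.el_mem h1, key _ hd.el_mem h2⟩
  simp only [List.coe_toFinset, List.mem_map, Set.mem_setOf_eq] at hk2
  obtain ⟨w, hw, e2⟩ := hk2
  refine ⟨w, hw, ?_⟩
  have h5 : (C.wd R w)⁻¹ * k ∈ K0 := by
    rw [← hst.1]
    exact ⟨K.mul_mem (K.inv_mem (hM.wd_mem (hQ w hw).1)) hk,
      mem_stabilizer_iff.2 (by rw [mul_smul, ← e2, inv_smul_smul])⟩
  rw [← hC] at h5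
  have h6 := mem_centralizer_singleton_iff.1 h5.2
  calc k * t * k⁻¹ = C.wd R w * ((C.wd R w)⁻¹ * k * t) * k⁻¹ := by group
    _ = C.wd R w * (t * ((C.wd R w)⁻¹ * k)) * k⁻¹ := by rw [h6]
    _ = C.wd R w * t * (C.wd R w)⁻¹ := by group

end act

end

end CfsgH6
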