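/-
Extending a register file.
-/
import Cfsg.Agent.H6.DCl

set_option autoImplicit false

namespace CfsgH6

open CfsgH5 Subgroup MulAction Pointwise

noncomputable section

variable {Γ : Type*} [Group Γ] {O : GOps} {C : GC O Γ} {R T : ℕ → ℕ} {n : ℕ}

/-- the registers below `n` from `R`, the others from `T` -/
def extR (R T : ℕ → ℕ) (n : ℕ) : ℕ → ℕ := fun i => bif' (Nat.blt i n) (R i) (T i)

theorem extR_lt {i : ℕ} (h : i < n) : extR R T n i = R i := by
  rw [extR, bif'_eq, if_pos (by simpa using h)]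

theorem lt_of_tb {M : ℕ} (h : Nat.blt M (Nat.pow 2 n) = true) {i : ℕ} (hi : M.testBit i = true) :
    i < n := by
  have h : M < 2 ^ n := by simpa using h
  by_contra hn
  rw [Nat.testBit_lt_two_pow (h.trans_le (Nat.pow_le_pow_right (by norm_num) (not_lt.1 hn)))] at hi
  exact absurd hi (by simp)

theorem GC.mem_extR {R' : ℕ → ℕ} (e : R' = extR R T n) {H : Subgroup Γ} {M : ℕ}
    (h : Nat.blt M (Nat.pow 2 n) = true) : C.Mem R' H M ↔ C.Mem R H M := by
  subst e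
  refine forall_congr' fun i => forall_congr' fun hi => ?_
  rw [extR_lt (lt_of_tb h hi)]

theorem GC.gen_extR {R' : ℕ → ℕ} (e : R' = extR R T n) {M : ℕ}
    (h : Nat.blt M (Nat.pow 2 n) = true) : C.gen R' M = C.gen R M := by
  subst e
  rw [GC.gen, GC.gen]
  congr 1
  ext g
  refine exists_congr fun i => and_congr_right fun hi => ?_
  rw [extR_lt (lt_of_tb h hi)]

theorem GC.dec_extR {R' : ℕ → ℕ} (e : R' = extR R T n) {MT MK : ℕ} {Q : List ℕ} {L : List (List ℕ)}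
    (h1 : Nat.blt MT (Nat.pow 2 n) = true) (h2 : Nat.blt MK (Nat.pow 2 n) = true)
    (h3 : ∀ w ∈ Q, Nat.digits 1024 w ∈ L ∧ ∀ i ∈ Nat.digits 1024 w, i < n)
    (h : Dec ⊤ (C.gen R' MT) (C.wds R' Q) (C.gen R' MK)) (m : Γ) :
    ∃ τ ∈ C.gen R MT, ∃ l ∈ L, ∃ a ∈ C.gen R MK,
      m = τ * (l.map fun i => C.el (R i)).prod * a := by
  obtain ⟨τ, hτ, _, ⟨w, hw, rfl⟩, a, ha, rfl⟩ := h m trivial
  rw [GC.gen_extR e h1] at hτ
  rw [GC.gen_extR e h2] at ha
  refine ⟨τ, hτ, _, (h3 w hw).1, a, ha, ?_⟩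
  rw [GC.wd, List.map_congr_left fun i hi => ?_]
  rw [e, extR_lt ((h3 w hw).2 i hi)]

end

end CfsgH6
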