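import Cfsg.Agent.H6.LyD2

set_option autoImplicit false
set_option maxRecDepth 100000
set_option linter.all false
set_option Elab.async false

namespace CfsgH6.Ly

open CfsgH5 CfsgH6 Subgroup MulAction Pointwise

noncomputable section

theorem chk4269 : band (pieces (fun c v => P7.ops.mul (pr2 197136 c) v) (fun x => x) tab4209 R 59103009294591718818418560150215420707619608905698170001922440106368582658639591224381630770019389392337500094070784 [124, 125, 383, 384] P7.ops.one l4268) (allL l4268 fun p => subW 59103009294591718818418560150215420707619608905698170001922440106368582658639591224381630770019389392337500094070784 p.2.1) = true := by decide +kernel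
theorem chk4273 : band (pieces (fun c v => P7.ops.mul (pr2 197136 c) v) (fun x => x) tab4209 R 59103009294591718818418560150215420707619608905698170001922440106368582658639591224381630770019389392337500094070784 [124, 125, 383, 384] P7.ops.one l4272) (allL l4272 fun p => subW 59103009294591718818418560150215420707619608905698170001922440106368582658639591224381630770019389392337500094070784 p.2.1) = true := by decide +kernel
theorem chk4277 : band (pieces (fun c v => P7.ops.mul (pr2 197136 c) v) (fun x => x) tab4209 R 59103009294591718818418560150215420707619608905698170001922440106368582658639591224381630770019389392337500094070784 [124, 125, 383, 384] P7.ops.one l4276) (allL l4276 fun p => subW 59103009294591718818418560150215420707619608905698170001922440106368582658639591224381630770019389392337500094070784 p.2.1) = true := by decide +kernel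
theorem chk4281 : band (pieces (fun c v => P7.ops.mul (pr2 197136 c) v) (fun x => x) tab4209 R 59103009294591718818418560150215420707619608905698170001922440106368582658639591224381630770019389392337500094070784 [124, 125, 383, 384] P7.ops.one l4280) (allL l4280 fun p => subW 59103009294591718818418560150215420707619608905698170001922440106368582658639591224381630770019389392337500094070784 p.2.1) = true := by decide +kernel
theorem chk4285 : band (pieces (fun c v => P7.ops.mul (pr2 197136 c) v) (fun x => x) tab4209 R 59103009294591718818418560150215420707619608905698170001922440106368582658639591224381630770019389392337500094070784 [124, 125, 383, 384] P7.ops.one l4284) (allL l4284 fun p => subW 59103009294591718818418560150215420707619608905698170001922440106368582658639591224381630770019389392337500094070784 p.2.1) = true := by decide +kernel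
theorem chk4289 : band (pieces (fun c v => P7.ops.mul (pr2 197136 c) v) (fun x => x) tab4209 R 59103009294591718818418560150215420707619608905698170001922440106368582658639591224381630770019389392337500094070784 [124, 125, 383, 384] P7.ops.one l4288) (allL l4288 fun p => subW 59103009294591718818418560150215420707619608905698170001922440106368582658639591224381630770019389392337500094070784 p.2.1) = true := by decide +kernel
theorem chk4291 : band (Nat.ble 1 2) (bnot (fConj P7 4 2 (pr2 197136 (R 90)))) = true := by decide +kernel
theorem chk4293 : band (commL P.ops R1 90 [161, 162, 163, 164, 160, 159, 158, 157, 156, 155, 154]) (subM 46745216431505598024420982071409864706807717429248 (insL [161, 162, 163, 164, 160, 159, 158, 157, 156, 155, 154] 0)) = true := by decide +kernel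
theorem chk4295 : band (Nat.beq (powC P.ops (R1 90) 2) P.ops.one) (bnot (Nat.beq (R1 90) P.ops.one)) = true := by decide +kernel
end

end CfsgH6.Ly
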