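import Cfsg.Agent.H6.LyD2

set_option autoImplicit false
set_option maxRecDepth 100000
set_option linter.all false
set_option Elab.async false

namespace CfsgH6.Ly

open CfsgH5 CfsgH6 Subgroup MulAction Pointwise

noncomputable section

theorem chk4271 : band (pieces (fun c v => P7.ops.mul (pr2 197136 c) v) (fun x => x) tab4209 R 59103009294591718818418560150215420707619608905698170001922440106368582658639591224381630770019389392337500094070784 [124, 125, 383, 384] P7.ops.one l4270) (allL l4270 fun p => subW 59103009294591718818418560150215420707619608905698170001922440106368582658639591224381630770019389392337500094070784 p.2.1) = true := by decide +kernel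
theorem chk4275 : band (pieces (fun c v => P7.ops.mul (pr2 197136 c) v) (fun x => x) tab4209 R 59103009294591718818418560150215420707619608905698170001922440106368582658639591224381630770019389392337500094070784 [124, 125, 383, 384] P7.ops.one l4274) (allL l4274 fun p => subW 59103009294591718818418560150215420707619608905698170001922440106368582658639591224381630770019389392337500094070784 p.2.1) = true := by decide +kernel
theorem chk4279 : band (pieces (fun c v => P7.ops.mul (pr2 197136 c) v) (fun x => x) tab4209 R 59103009294591718818418560150215420707619608905698170001922440106368582658639591224381630770019389392337500094070784 [124, 125, 383, 384] P7.ops.one l4278) (allL l4278 fun p => subW 59103009294591718818418560150215420707619608905698170001922440106368582658639591224381630770019389392337500094070784 p.2.1) = true := by decide +kernel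
theorem chk4283 : band (pieces (fun c v => P7.ops.mul (pr2 197136 c) v) (fun x => x) tab4209 R 59103009294591718818418560150215420707619608905698170001922440106368582658639591224381630770019389392337500094070784 [124, 125, 383, 384] P7.ops.one l4282) (allL l4282 fun p => subW 59103009294591718818418560150215420707619608905698170001922440106368582658639591224381630770019389392337500094070784 p.2.1) = true := by decide +kernel
theorem chk4287 : band (pieces (fun c v => P7.ops.mul (pr2 197136 c) v) (fun x => x) tab4209 R 59103009294591718818418560150215420707619608905698170001922440106368582658639591224381630770019389392337500094070784 [124, 125, 383, 384] P7.ops.one l4286) (allL l4286 fun p => subW 59103009294591718818418560150215420707619608905698170001922440106368582658639591224381630770019389392337500094070784 p.2.1) = true := by decide +kernel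
theorem chk4290 : cover 298625 [0] (l4210 ++ (l4212 ++ (l4214 ++ (l4216 ++ (l4218 ++ (l4220 ++ (l4222 ++ (l4224 ++ (l4226 ++ (l4228 ++ (l4230 ++ (l4232 ++ (l4234 ++ (l4236 ++ (l4238 ++ (l4240 ++ (l4242 ++ (l4244 ++ (l4246 ++ (l4248 ++ (l4250 ++ (l4252 ++ (l4254 ++ (l4256 ++ (l4258 ++ (l4260 ++ (l4262 ++ (l4264 ++ (l4266 ++ (l4268 ++ (l4270 ++ (l4272 ++ (l4274 ++ (l4276 ++ (l4278 ++ (l4280 ++ (l4282 ++ (l4284 ++ (l4286 ++ (l4288)))))))))))))))))))))))))))))))))))))))) 0 = true := by decide +kernel
theorem chk4292 : band (commL P.ops R1 89 [271, 272, 273, 274, 275, 276, 277, 278, 279, 280, 281]) (subM 7766881293722787906586208053257310941205091405351034375004804692842845843388792569856 (insL [271, 272, 273, 274, 275, 276, 277, 278, 279, 280, 281] 0)) = true := by decide +kernel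
theorem chk4294 : subM 8190 288588912571248627043059375733473733923923871609854345712511914581877845006083085532898561083444346756005166587902 = true := by decide +kernel
theorem chk4296 : band (Nat.beq (powC P.ops (R1 89) 3) P.ops.one) (bnot (Nat.beq (R1 89) P.ops.one)) = true := by decide +kernel
end

end CfsgH6.Ly
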