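import Cfsg.Agent.H6.LyMD0

set_option autoImplicit false
set_option maxRecDepth 100000
set_option linter.all false
set_option Elab.async false

namespace CfsgH6.LyM

open CfsgH5 CfsgH6 Subgroup MulAction Pointwise

noncomputable section

theorem chk1077 : band (pieces (fun c v => (app2 275 276 9) (pr2 197136 c) v) (fun x => x) tab1071 R 5191029207934599399128999626018814 [100, 103, 106, 107, 104, 6, 7, 109] pt1015c l1076) (allL l1076 fun p => subW 5191029207934599399128999626018814 p.2.1) = true := by decide +kernel
theorem chk1079 : band (pieces (fun c v => (app2 275 276 9) (pr2 197136 c) v) (fun x => x) tab1071 R 5191029207934599399128999626018814 [100, 103, 106, 107, 104, 6, 7, 109] pt1015c l1078) (allL l1078 fun p => subW 5191029207934599399128999626018814 p.2.1) = true := by decide +kernel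
theorem chk1080 : cover 22266 [0] (l1072 ++ (l1074 ++ (l1076 ++ (l1078)))) 0 = true := by decide +kernel
theorem chk1081 : fixW (fun c v => (app2 275 276 9) (pr2 197136 c) v) R 5191029207934599399128999626018814 pt1015c (R 10) (R 11) [0, 8670417165793158086765053956, 8670423069898553678894204932, 8670423069903055078422486020, 8878513223578423686495995959300, 8878513223578424813490047812613, 9089062239743849396168908602345478, 9091591348828618973206404869921798, 9091597538529994837676697435770885] = true := by decide +kernel
theorem chk1082 : nodupB (List.map (fun w => appW (fun c v => (app2 275 276 9) (pr2 197136 c) v) R w pt1015c) [0, 8670417165793158086765053956, 8670423069898553678894204932, 8670423069903055078422486020, 8878513223578423686495995959300, 8878513223578424813490047812613, 9089062239743849396168908602345478, 9091591348828618973206404869921798, 9091597538529994837676697435770885]) = true := by decide +kernel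
theorem chk1083 : subM 4094 8388606 = true := by decide +kernel
end

end CfsgH6.LyM
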